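import Mathlib

/-!
# S5287 pieces VD and VQ: Klein-four data in dihedral 2-groups, quaternion data in
generalized quaternion 2-groups
-/

set_option autoImplicit false

namespace Cfsg.Agent.H40.KD

/-! ## dihedral -/

theorem dih_facts (m : ℕ) (hm : 1 ≤ m) :
    ∃ z y h₀ : DihedralGroup (4 * m), (∀ s, s * z = z * s) ∧ z * z = 1 ∧ y * y = 1 ∧ z ≠ 1 ∧
      y ≠ 1 ∧ y ≠ z ∧ (∀ s, s * y = y * s → s = 1 ∨ s = z ∨ s = y ∨ s = z * y) ∧
      h₀ * y * h₀⁻¹ = z * y := by
  have hne : NeZero (4 * m) := ⟨by omega⟩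
  obtain ⟨c, hc⟩ : ∃ c : ZMod (4 * m), c = (m : ZMod (4 * m)) := ⟨_, rfl⟩
  have h4c : 4 * c = 0 := by
    have : ((4 * m : ℕ) : ZMod (4 * m)) = 0 := ZMod.natCast_self _
    rw [hc, ← this]; push_cast; ring
  have h2c : 2 * c ≠ 0 := by
    intro h
    have h' : ((2 * m : ℕ) : ZMod (4 * m)) = 0 := by push_cast; rw [← hc]; exact h
    rw [ZMod.natCast_eq_zero_iff] at h'
    have := Nat.le_of_dvd (by omega) h'
    omega
  have key : ∀ i : ZMod (4 * m), 2 * i = 0 → i = 0 ∨ i = 2 * c := by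
    intro i hi
    have hv := ZMod.val_lt i
    have hi' : ((2 * i.val : ℕ) : ZMod (4 * m)) = 0 := by
      push_cast; rw [ZMod.natCast_zmod_val]; exact hi
    rw [ZMod.natCast_eq_zero_iff] at hi'
    obtain ⟨q, hq⟩ := hi'
    have hq2 : q < 2 := by
      by_contra hcon
      have : 2 ≤ q := by omega
      nlinarith
    interval_cases q
    · left
      have : i.val = 0 := by omega
      exact (ZMod.val_eq_zero i).mp this
    · right
      have : i.val = 2 * m := by omega
      rw [← ZMod.natCast_zmod_val i, this, hc]; push_cast; rfl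
  refine ⟨DihedralGroup.r (2 * c), DihedralGroup.sr 0, DihedralGroup.r c, ?_, ?_, ?_, ?_, ?_, ?_,
    ?_, ?_⟩
  · intro s
    cases s with
    | r i => rw [DihedralGroup.r_mul_r, DihedralGroup.r_mul_r, add_comm]
    | sr i =>
      rw [DihedralGroup.sr_mul_r, DihedralGroup.r_mul_sr]
      congr 1
      linear_combination h4c
  · rw [DihedralGroup.r_mul_r, DihedralGroup.one_def]
    congr 1
    linear_combination h4c
  · rw [DihedralGroup.sr_mul_sr, DihedralGroup.one_def]
    congr 1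
    ring
  · rw [DihedralGroup.one_def]
    intro h
    exact h2c (DihedralGroup.r.inj h)
  · rw [DihedralGroup.one_def]
    intro h
    cases h
  · intro h
    cases h
  · intro s hs
    cases s with
    | r i =>
      rw [DihedralGroup.r_mul_sr, DihedralGroup.sr_mul_r] at hs
      have h2 : 2 * i = 0 := by
        have := DihedralGroup.sr.inj hs
        linear_combination (-1 : ZMod (4 * m)) * this
      rcases key i h2 with h | h
      · left; rw [h, DihedralGroup.one_def]
      · right; left; rw [h]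
    | sr i =>
      rw [DihedralGroup.sr_mul_sr, DihedralGroup.sr_mul_sr] at hs
      have h2 : 2 * i = 0 := by
        have := DihedralGroup.r.inj hs
        linear_combination (-1 : ZMod (4 * m)) * this
      rcases key i h2 with h | h
      · right; right; left; rw [h]
      · right; right; right
        rw [h, DihedralGroup.r_mul_sr]
        congr 1
        linear_combination h4c
  · rw [mul_inv_eq_iff_eq_mul, DihedralGroup.r_mul_sr, DihedralGroup.r_mul_sr,
      DihedralGroup.sr_mul_r]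
    congr 1
    ring

/-- transport of statements along an isomorphism from a subgroup. -/
theorem transport_aux {Ω : Type*} [Group Ω] {S : Subgroup Ω} {Q : Type*} [Group Q]
    (e : ↥S ≃* Q) :
    ∃ f : Q →* Ω, Function.Injective f ∧ (∀ q, f q ∈ S) ∧ ∀ s ∈ S, ∃ q, f q = s := by
  refine ⟨S.subtype.comp e.symm.toMonoidHom, ?_, ?_, ?_⟩
  · exact S.subtype_injective.comp e.symm.injective
  · intro q
    exact (e.symm q).2
  · intro s hs
    exact ⟨e ⟨s, hs⟩, by simp⟩

theorem dihedral_klein_data {Ω : Type*} [Group Ω] {S : Subgroup Ω} [Finite S] (hS : IsPGroup 2 S)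
    (n : ℕ) (hn : 3 ≤ n) (e : ↥S ≃* DihedralGroup n) :
    ∃ z y h₀ : Ω, z ∈ S ∧ y ∈ S ∧ h₀ ∈ S ∧ (∀ s ∈ S, s * z = z * s) ∧ z * z = 1 ∧ y * y = 1 ∧
      z ≠ 1 ∧ y ≠ 1 ∧ y ≠ z ∧ (∀ s ∈ S, s * y = y * s → s = 1 ∨ s = z ∨ s = y ∨ s = z * y) ∧
      h₀ * y * h₀⁻¹ = z * y := by
  obtain ⟨k, hk⟩ := (IsPGroup.iff_card (p := 2) (G := S)).mp hS
  have hcard : Nat.card S = 2 * n := by rw [Nat.card_congr e.toEquiv, DihedralGroup.nat_card]
  obtain ⟨m, rfl⟩ : ∃ m, n = 4 * m := by
    rw [hcard] at hk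
    rcases k with _ | _ | _ | k
    · omega
    · omega
    · norm_num at hk; omega
    · refine ⟨2 ^ k, ?_⟩
      have : 2 ^ (k + 1 + 1 + 1) = 8 * 2 ^ k := by ring
      omega
  obtain ⟨z', y', h', p1, p2, p3, p4, p5, p6, p7, p8⟩ := dih_facts m (by omega)
  obtain ⟨f, hf, hfS, hfs⟩ := transport_aux e
  refine ⟨f z', f y', f h', hfS _, hfS _, hfS _, ?_, ?_, ?_, ?_, ?_, ?_, ?_, ?_⟩
  · intro s hs
    obtain ⟨q, rfl⟩ := hfs s hs
    rw [← map_mul, ← map_mul, p1]
  · rw [← map_mul, p2, map_one]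
  · rw [← map_mul, p3, map_one]
  · rw [← map_one f, hf.ne_iff]; exact p4
  · rw [← map_one f, hf.ne_iff]; exact p5
  · rw [hf.ne_iff]; exact p6
  · intro s hs hsy
    obtain ⟨q, rfl⟩ := hfs s hs
    rw [← map_mul, ← map_mul, hf.eq_iff] at hsy
    rcases p7 q hsy with h | h | h | h
    · left; rw [h, map_one]
    · right; left; rw [h]
    · right; right; left; rw [h]
    · right; right; right; rw [h, map_mul]
  · rw [← map_inv, ← map_mul, ← map_mul, ← map_mul, p8]

/-! ## quaternion -/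

theorem qinv_a {n : ℕ} (i : ZMod (2 * n)) :
    (QuaternionGroup.a i : QuaternionGroup n)⁻¹ = QuaternionGroup.a (-i) := rfl

theorem qinv_xa {n : ℕ} (i : ZMod (2 * n)) :
    (QuaternionGroup.xa i : QuaternionGroup n)⁻¹ = QuaternionGroup.xa ((n : ZMod (2 * n)) + i) :=
  rfl

theorem qa_pow {n : ℕ} (x : ZMod (2 * n)) (k : ℕ) :
    (QuaternionGroup.a x : QuaternionGroup n) ^ k =
      QuaternionGroup.a ((k : ZMod (2 * n)) * x) := by
  induction k with
  | zero =>
    rw [pow_zero, QuaternionGroup.one_def]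
    congr 1
    push_cast
    ring
  | succ k ih =>
    rw [pow_succ, ih, QuaternionGroup.a_mul_a]
    congr 1
    push_cast
    ring

theorem quat_facts (m : ℕ) (hm : 1 ≤ m) :
    ∃ i j ξ : QuaternionGroup (4 * m), i ^ 4 = 1 ∧ i ^ 2 ≠ 1 ∧ j * j = i ^ 2 ∧
      j * i * j⁻¹ = i⁻¹ ∧ (∀ s, s * i ^ 2 = i ^ 2 * s) ∧
      (∀ s, s * i * s⁻¹ = i ∨ s * i * s⁻¹ = i⁻¹) ∧ ξ * i = i * ξ ∧ ξ * j * ξ⁻¹ = i * j ∧
      (∀ s, (s * j * s⁻¹ = j ∨ s * j * s⁻¹ = j⁻¹) → ∃ a b : ℕ, s = i ^ a * j ^ b) ∧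
      (∀ s, (s * (i * j) * s⁻¹ = i * j ∨ s * (i * j) * s⁻¹ = (i * j)⁻¹) →
        ∃ a b : ℕ, s = i ^ a * j ^ b) := by
  have hne : NeZero (2 * (4 * m)) := ⟨by omega⟩
  obtain ⟨c, hc⟩ : ∃ c : ZMod (2 * (4 * m)), c = (m : ZMod (2 * (4 * m))) := ⟨_, rfl⟩
  have h8c : 8 * c = 0 := by
    have : ((2 * (4 * m) : ℕ) : ZMod (2 * (4 * m))) = 0 := ZMod.natCast_self _
    rw [hc, ← this]; push_cast; ring
  have hn : ((4 * m : ℕ) : ZMod (2 * (4 * m))) = 4 * c := by rw [hc]; push_cast; ring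
  have h4c : 4 * c ≠ 0 := by
    intro h
    rw [← hn, ZMod.natCast_eq_zero_iff] at h
    have := Nat.le_of_dvd (by omega) h
    omega
  have key : ∀ x : ZMod (2 * (4 * m)), 4 * x = 0 → ∃ t : ℕ, x = t * (2 * c) := by
    intro x hx
    have hx' : ((4 * x.val : ℕ) : ZMod (2 * (4 * m))) = 0 := by
      push_cast; rw [ZMod.natCast_zmod_val]; exact hx
    rw [ZMod.natCast_eq_zero_iff] at hx'
    obtain ⟨q, hq⟩ := hx'
    refine ⟨q, ?_⟩
    have : x.val = 2 * m * q := by
      have : 4 * x.val = 4 * (2 * m * q) := by rw [hq]; ring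
      omega
    rw [← ZMod.natCast_zmod_val x, this, hc]; push_cast; ring
  have hij : (QuaternionGroup.a (2 * c) * QuaternionGroup.xa 0 : QuaternionGroup (4 * m)) =
      QuaternionGroup.xa (-(2 * c)) := by
    rw [QuaternionGroup.a_mul_xa]; congr 1; ring
  refine ⟨QuaternionGroup.a (2 * c), QuaternionGroup.xa 0, QuaternionGroup.a c, ?_, ?_, ?_, ?_,
    ?_, ?_, ?_, ?_, ?_, ?_⟩
  · rw [qa_pow, QuaternionGroup.one_def]
    congr 1
    push_cast
    linear_combination h8c
  · rw [qa_pow, QuaternionGroup.one_def]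
    intro h
    apply h4c
    have := QuaternionGroup.a.inj h
    push_cast at this
    linear_combination this
  · rw [QuaternionGroup.xa_mul_xa, qa_pow]
    congr 1
    rw [hn]
    push_cast
    ring
  · rw [qinv_xa, qinv_a, QuaternionGroup.xa_mul_a, QuaternionGroup.xa_mul_xa]
    congr 1
    rw [hn]
    linear_combination h8c
  · intro s
    rw [qa_pow]
    cases s with
    | a x =>
      rw [QuaternionGroup.a_mul_a, QuaternionGroup.a_mul_a]
      congr 1
      ring
    | xa x =>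
      rw [QuaternionGroup.xa_mul_a, QuaternionGroup.a_mul_xa]
      congr 1
      push_cast
      linear_combination h8c
  · intro s
    cases s with
    | a x =>
      left
      rw [qinv_a, QuaternionGroup.a_mul_a, QuaternionGroup.a_mul_a]
      congr 1
      ring
    | xa x =>
      right
      rw [qinv_xa, qinv_a, QuaternionGroup.xa_mul_a, QuaternionGroup.xa_mul_xa]
      congr 1
      rw [hn]
      linear_combination h8c
  · rw [QuaternionGroup.a_mul_a, QuaternionGroup.a_mul_a]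
    congr 1
    ring
  · rw [qinv_a, QuaternionGroup.a_mul_xa, QuaternionGroup.xa_mul_a, QuaternionGroup.a_mul_xa]
    congr 1
    ring
  · intro s hs
    cases s with
    | a x =>
      have h4x : 4 * x = 0 := by
        rcases hs with h | h
        · rw [qinv_a, QuaternionGroup.a_mul_xa, QuaternionGroup.xa_mul_a] at h
          have := QuaternionGroup.xa.inj h
          linear_combination (-2 : ZMod (2 * (4 * m))) * this
        · rw [qinv_a, qinv_xa, QuaternionGroup.a_mul_xa, QuaternionGroup.xa_mul_a] at h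
          have := QuaternionGroup.xa.inj h
          rw [hn] at this
          linear_combination (-2 : ZMod (2 * (4 * m))) * this - h8c
      obtain ⟨t, ht⟩ := key x h4x
      refine ⟨t, 0, ?_⟩
      rw [qa_pow, pow_zero, mul_one, ht]
    | xa x =>
      have h4x : 4 * x = 0 := by
        rcases hs with h | h
        · rw [qinv_xa, QuaternionGroup.xa_mul_xa, QuaternionGroup.a_mul_xa] at h
          have := QuaternionGroup.xa.inj h
          linear_combination (2 : ZMod (2 * (4 * m))) * this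
        · rw [qinv_xa, qinv_xa, QuaternionGroup.xa_mul_xa, QuaternionGroup.a_mul_xa] at h
          have := QuaternionGroup.xa.inj h
          rw [hn] at this
          linear_combination (2 : ZMod (2 * (4 * m))) * this + h8c
      obtain ⟨t, ht⟩ := key x h4x
      refine ⟨3 * t, 1, ?_⟩
      rw [qa_pow, pow_one, QuaternionGroup.a_mul_xa, ht]
      congr 1
      push_cast
      linear_combination (t : ZMod (2 * (4 * m))) * h8c
  · intro s hs
    rw [hij] at hs
    cases s with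
    | a x =>
      have h4x : 4 * x = 0 := by
        rcases hs with h | h
        · rw [qinv_a, QuaternionGroup.a_mul_xa, QuaternionGroup.xa_mul_a] at h
          have := QuaternionGroup.xa.inj h
          linear_combination (-2 : ZMod (2 * (4 * m))) * this
        · rw [qinv_a, qinv_xa, QuaternionGroup.a_mul_xa, QuaternionGroup.xa_mul_a] at h
          have := QuaternionGroup.xa.inj h
          rw [hn] at this
          linear_combination (-2 : ZMod (2 * (4 * m))) * this - h8c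
      obtain ⟨t, ht⟩ := key x h4x
      refine ⟨t, 0, ?_⟩
      rw [qa_pow, pow_zero, mul_one, ht]
    | xa x =>
      have h4x : 4 * x = 0 := by
        rcases hs with h | h
        · rw [qinv_xa, QuaternionGroup.xa_mul_xa, QuaternionGroup.a_mul_xa] at h
          have := QuaternionGroup.xa.inj h
          rw [hn] at this
          linear_combination (2 : ZMod (2 * (4 * m))) * this - h8c
        · rw [qinv_xa, qinv_xa, QuaternionGroup.xa_mul_xa, QuaternionGroup.a_mul_xa] at h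
          have := QuaternionGroup.xa.inj h
          rw [hn] at this
          linear_combination (2 : ZMod (2 * (4 * m))) * this
      obtain ⟨t, ht⟩ := key x h4x
      refine ⟨3 * t, 1, ?_⟩
      rw [qa_pow, pow_one, QuaternionGroup.a_mul_xa, ht]
      congr 1
      push_cast
      linear_combination (t : ZMod (2 * (4 * m))) * h8c

theorem quaternion_quat_data {Ω : Type*} [Group Ω] {S : Subgroup Ω} [Finite S]
    (hS : IsPGroup 2 S) (n : ℕ) (hn : 3 ≤ n) (e : ↥S ≃* QuaternionGroup n) :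
    ∃ i j ξ : Ω, i ∈ S ∧ j ∈ S ∧ ξ ∈ S ∧ i ^ 4 = 1 ∧ i ^ 2 ≠ 1 ∧ j * j = i ^ 2 ∧
      j * i * j⁻¹ = i⁻¹ ∧ (∀ s ∈ S, s * i ^ 2 = i ^ 2 * s) ∧
      (∀ s ∈ S, s * i * s⁻¹ = i ∨ s * i * s⁻¹ = i⁻¹) ∧ ξ * i = i * ξ ∧ ξ * j * ξ⁻¹ = i * j ∧
      (∀ s ∈ S, (s * j * s⁻¹ = j ∨ s * j * s⁻¹ = j⁻¹) → ∃ a b : ℕ, s = i ^ a * j ^ b) ∧
      (∀ s ∈ S, (s * (i * j) * s⁻¹ = i * j ∨ s * (i * j) * s⁻¹ = (i * j)⁻¹) →
        ∃ a b : ℕ, s = i ^ a * j ^ b) := by
  obtain ⟨k, hk⟩ := (IsPGroup.iff_card (p := 2) (G := S)).mp hS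
  have hne : NeZero n := ⟨by omega⟩
  have hcard : Nat.card S = 4 * n := by
    rw [Nat.card_congr e.toEquiv, Nat.card_eq_fintype_card, QuaternionGroup.card]
  obtain ⟨m, rfl⟩ : ∃ m, n = 4 * m := by
    rw [hcard] at hk
    rcases k with _ | _ | _ | _ | k
    · omega
    · omega
    · norm_num at hk; omega
    · norm_num at hk; omega
    · refine ⟨2 ^ k, ?_⟩
      have : 2 ^ (k + 1 + 1 + 1 + 1) = 16 * 2 ^ k := by ring
      omega
  obtain ⟨i', j', ξ', p1, p2, p3, p4, p5, p6, p7, p8, p9, p10⟩ := quat_facts m (by omega)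
  obtain ⟨f, hf, hfS, hfs⟩ := transport_aux e
  refine ⟨f i', f j', f ξ', hfS _, hfS _, hfS _, ?_, ?_, ?_, ?_, ?_, ?_, ?_, ?_, ?_, ?_⟩
  · rw [← map_pow, p1, map_one]
  · rw [← map_pow, ← map_one f, hf.ne_iff]; exact p2
  · rw [← map_mul, ← map_pow, p3]
  · rw [← map_inv, ← map_mul, ← map_mul, ← map_inv, p4]
  · intro s hs
    obtain ⟨q, rfl⟩ := hfs s hs
    rw [← map_pow, ← map_mul, ← map_mul, p5]
  · intro s hs
    obtain ⟨q, rfl⟩ := hfs s hs
    rw [← map_inv, ← map_mul, ← map_mul, ← map_inv, hf.eq_iff, hf.eq_iff]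
    exact p6 q
  · rw [← map_mul, ← map_mul, p7]
  · rw [← map_inv, ← map_mul, ← map_mul, ← map_mul, p8]
  · intro s hs hsj
    obtain ⟨q, rfl⟩ := hfs s hs
    rw [← map_inv, ← map_mul, ← map_mul, ← map_inv, hf.eq_iff, hf.eq_iff] at hsj
    obtain ⟨a, b, hab⟩ := p9 q hsj
    exact ⟨a, b, by rw [hab, map_mul, map_pow, map_pow]⟩
  · intro s hs hsj
    obtain ⟨q, rfl⟩ := hfs s hs
    rw [← map_inv, ← map_mul, ← map_mul, ← map_mul, ← map_inv, hf.eq_iff, hf.eq_iff] at hsj
    obtain ⟨a, b, hab⟩ := p10 q hsj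
    exact ⟨a, b, by rw [hab, map_mul, map_pow, map_pow]⟩

end Cfsg.Agent.H40.KD
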