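import Mathlib
import Cfsg.Prelude.Def_Blocks
import Cfsg.Prelude.Def_Characters
import Cfsg.Prelude.Def_Solvable
import Cfsg.Prelude.Def_CaseTheorems
import Cfsg.Agent.H21.BRMDefs

/-!
# S4700-ARITH2 (helper40, for helper21)

Pure arithmetic: under `ND p n` the degree pattern of a principal block of defect one forces a
character of degree `p - 1` with sign `-1`.
-/

set_option autoImplicit false

namespace Cfsg.Agent.H40.BRQ

open Cfsg Cfsg.Agent.H21.BR

theorem exists_minus_degree {ι : Type*} (p e t n : ℕ) (hp : p.Prime) (hp2 : p ≠ 2)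
    (het : e * t = p - 1) (he2 : 2 ≤ e) (hn : 1 ≤ n) (hND : ND p n)
    (X Y : Finset ι) (o : ι) (deg : ι → ℕ) (δ : ι → ℤ) (ε : ℤ)
    (hdisj : Disjoint X Y) (hcX : X.card = e) (hcY : Y.card = t)
    (ho : o ∈ X ∨ o ∈ Y) (hdo : deg o = 1)
    (hone : ∀ i, i ∈ X ∨ i ∈ Y → deg i = 1 → i = o)
    (hδ : ∀ i ∈ X, δ i = 1 ∨ δ i = -1)
    (hdX : ∀ i ∈ X, (deg i : ℤ) ≡ δ i [ZMOD p])
    (hε : ε = 1 ∨ ε = -1)
    (hdY : ∀ i ∈ Y, (deg i : ℤ) ≡ ε * (e : ℤ) [ZMOD p])
    (hYeq : ∀ i ∈ Y, ∀ j ∈ Y, deg i = deg j)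
    (hrel : ∀ i ∈ Y, ε * (deg i : ℤ) = ∑ j ∈ X, δ j * (deg j : ℤ))
    (hdvdX : ∀ i ∈ X, deg i ∣ e * (1 + n * p))
    (hdvdY : ∀ i ∈ Y, deg i ∣ e * (1 + n * p)) :
    (∃ i ∈ X, δ i = -1 ∧ deg i = p - 1) ∨ (t = 1 ∧ ε = 1 ∧ ∃ i ∈ Y, deg i = p - 1) := by
  classical
  by_contra hcon
  rw [not_or] at hcon
  have hb : ∀ i ∈ X, δ i = -1 → deg i ≠ p - 1 := fun i hi h1 h2 => hcon.1 ⟨i, hi, h1, h2⟩
  clear hcon
  have hp3 : 3 ≤ p := by
    have := hp.two_le
    omega
  obtain ⟨P1, hP1⟩ : ∃ P1, P1 + 1 = p := ⟨p - 1, by omega⟩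
  have hP1' : p - 1 = P1 := by omega
  rw [hP1'] at het hb
  obtain ⟨m, hm⟩ : ∃ m, m = 1 + n * p := ⟨_, rfl⟩
  have hND' : ∀ d : ℕ, d ∣ P1 * m → d % p = 1 → d = 1 ∨ m ≤ d := by
    intro d hd hdp
    have h := hND d (by rw [hP1', ← hm]; exact hd) hdp
    rw [← hm] at h
    exact h
  rw [← hm] at hdvdX hdvdY
  have hm4 : p + 1 ≤ m := by
    rw [hm]
    nlinarith
  have hmpos : 0 < m := by omega
  have hepos : 0 < e := by omega
  have ht1 : 1 ≤ t := by
    rcases Nat.eq_zero_or_pos t with h | h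
    · rw [h] at het
      omega
    · exact h
  have heP : e ≤ P1 := by
    rw [← het]
    exact Nat.le_mul_of_pos_right e ht1
  have hemP : e * m ∣ P1 * m := by
    rw [← het]
    exact ⟨t, by ring⟩
  -- facts in `ZMod p`
  have zp : ((p : ℕ) : ZMod p) = 0 := ZMod.natCast_self p
  have zm : ((m : ℕ) : ZMod p) = 1 := by
    rw [hm]
    push_cast
    rw [zp]
    ring
  have zP1 : ((P1 : ℕ) : ZMod p) = -1 := by
    have h : ((P1 + 1 : ℕ) : ZMod p) = 0 := by
      rw [hP1]
      exact zp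
    push_cast at h
    linear_combination h
  have hlt : ∀ a : ℕ, a ≤ P1 → a % p = a := fun a ha => Nat.mod_eq_of_lt (by omega)
  -- every other member of `X` has degree divisible by `m`
  have stepA : ∀ j ∈ X, j ≠ o → m ∣ deg j := by
    intro j hj hjo
    have hd1 : deg j ≠ 1 := fun h => hjo (hone j (Or.inl hj) h)
    have hz : ((deg j : ℤ) : ZMod p) = ((δ j : ℤ) : ZMod p) :=
      (ZMod.intCast_eq_intCast_iff _ _ _).mpr (hdX j hj)
    obtain ⟨f', hf'⟩ := hdvdX j hj
    rcases hδ j hj with h1 | h1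
    · rw [h1] at hz
      have hz' : ((deg j : ℕ) : ZMod p) = 1 := by exact_mod_cast hz
      have hdp : deg j % p = 1 := by
        have h := (ZMod.natCast_eq_natCast_iff' (deg j) 1 p).mp (by exact_mod_cast hz')
        rwa [Nat.mod_eq_of_lt hp.one_lt] at h
      rcases hND' (deg j) (Dvd.dvd.trans ⟨f', hf'⟩ hemP) hdp with h | h
      · exact absurd h hd1
      · have hf'e : f' ≤ e := by
          have h3 : m * f' ≤ m * e := by
            calc m * f' ≤ deg j * f' := Nat.mul_le_mul_right f' h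
              _ = m * e := by rw [← hf']; ring
          exact Nat.le_of_mul_le_mul_left h3 hmpos
        have hzf : ((f' : ℕ) : ZMod p) = ((e : ℕ) : ZMod p) := by
          have h3 := congrArg (fun x : ℕ => (x : ZMod p)) hf'
          simp only [Nat.cast_mul] at h3
          rw [zm, hz', mul_one, one_mul] at h3
          exact h3.symm
        have h4 := (ZMod.natCast_eq_natCast_iff' f' e p).mp hzf
        rw [hlt f' (by omega), hlt e heP] at h4
        rw [h4] at hf'
        have h5 : deg j = m := by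
          have h3 : e * m = e * deg j := by rw [hf']; ring
          exact (Nat.eq_of_mul_eq_mul_left hepos h3).symm
        rw [h5]
    · rw [h1] at hz
      have hz' : ((deg j : ℕ) : ZMod p) = -1 := by exact_mod_cast hz
      have hg : deg j * (f' * t) = P1 * m := by
        rw [← het]
        calc deg j * (f' * t) = (deg j * f') * t := by ring
          _ = (e * m) * t := by rw [hf']
          _ = e * t * m := by ring
      have hzg : (((f' * t : ℕ)) : ZMod p) = ((1 : ℕ) : ZMod p) := by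
        have h3 := congrArg (fun x : ℕ => (x : ZMod p)) hg
        simp only [Nat.cast_mul] at h3
        rw [hz', zP1, zm] at h3
        push_cast
        linear_combination (-1 : ZMod p) * h3
      have hgp : (f' * t) % p = 1 := by
        have h := (ZMod.natCast_eq_natCast_iff' (f' * t) 1 p).mp hzg
        rwa [Nat.mod_eq_of_lt hp.one_lt] at h
      rcases hND' (f' * t) ⟨deg j, by rw [← hg]; ring⟩ hgp with h | h
      · rw [h, mul_one] at hg
        rw [hg]
        exact Dvd.intro_left _ rfl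
      · exfalso
        have hdle : deg j ≤ P1 := by
          have h3 : deg j * m ≤ P1 * m := by
            rw [← hg]
            exact Nat.mul_le_mul_left _ h
          exact Nat.le_of_mul_le_mul_right h3 hmpos
        have hzz : ((deg j : ℕ) : ZMod p) = ((P1 : ℕ) : ZMod p) := by rw [hz', zP1]
        have h4 := (ZMod.natCast_eq_natCast_iff' (deg j) P1 p).mp hzz
        rw [hlt _ hdle, hlt P1 le_rfl] at h4
        exact hb j hj h1 h4
  -- a member of `Y`
  have hYne : Y.Nonempty := by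
    rw [← Finset.card_pos, hcY]
    exact ht1
  obtain ⟨θ, hθ⟩ := hYne
  have hy := hrel θ hθ
  have hyd := hdvdY θ hθ
  by_cases hoX : o ∈ X
  · have hδo : δ o = 1 := by
      rcases hδ o hoX with h | h
      · exact h
      · exfalso
        have hz : ((deg o : ℤ) : ZMod p) = ((δ o : ℤ) : ZMod p) :=
          (ZMod.intCast_eq_intCast_iff _ _ _).mpr (hdX o hoX)
        rw [hdo, h] at hz
        have h2 : ((2 : ℕ) : ZMod p) = 0 := by
          push_cast at hz ⊢
          linear_combination hz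
        have h3 := (ZMod.natCast_eq_zero_iff 2 p).mp h2
        have h4 := Nat.le_of_dvd (by norm_num) h3
        omega
    have hS : (m : ℤ) ∣ (∑ j ∈ X, δ j * (deg j : ℤ)) - 1 := by
      rw [← Finset.add_sum_erase X _ hoX, hδo, hdo]
      have h3 : (m : ℤ) ∣ ∑ j ∈ X.erase o, δ j * (deg j : ℤ) := by
        apply Finset.dvd_sum
        intro j hj
        rw [Finset.mem_erase] at hj
        exact Dvd.dvd.mul_left (Int.natCast_dvd_natCast.mpr (stepA j hj.2 hj.1)) _
      have e3 : (1 : ℤ) * ((1 : ℕ) : ℤ) + ∑ j ∈ X.erase o, δ j * (deg j : ℤ) - 1 =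
          ∑ j ∈ X.erase o, δ j * (deg j : ℤ) := by
        push_cast
        ring
      rw [e3]
      exact h3
    rw [← hy] at hS
    obtain ⟨k, hk⟩ := hS
    have hcop : Nat.Coprime (deg θ) m := by
      rw [← Nat.isCoprime_iff_coprime]
      exact ⟨ε, -k, by linear_combination hk⟩
    have hye : deg θ ∣ e := hcop.dvd_of_dvd_mul_right hyd
    have hyle : deg θ ≤ e := Nat.le_of_dvd hepos hye
    have hypos : 0 < deg θ := Nat.pos_of_dvd_of_pos hye hepos
    rcases hε with h | h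
    · rw [h, one_mul] at hk
      have hy1 : deg θ = 1 := by
        have h0 : ((deg θ : ℤ) - 1) = 0 := by
          apply Int.eq_zero_of_abs_lt_dvd ⟨k, hk⟩
          rw [abs_of_nonneg (by omega)]
          omega
        omega
      have h5 := hone θ (Or.inr hθ) hy1
      rw [h5] at hθ
      exact Finset.disjoint_left.mp hdisj hoX hθ
    · rw [h] at hk
      have hdv : (m : ℤ) ∣ ((deg θ + 1 : ℕ) : ℤ) :=
        ⟨-k, by push_cast; linear_combination (-1 : ℤ) * hk⟩
      have h5 := Nat.le_of_dvd (by omega) (Int.natCast_dvd_natCast.mp hdv)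
      omega
  · have hoY : o ∈ Y := ho.resolve_left hoX
    have hy1 : deg θ = 1 := by rw [hYeq θ hθ o hoY, hdo]
    have hS : (m : ℤ) ∣ ∑ j ∈ X, δ j * (deg j : ℤ) := by
      apply Finset.dvd_sum
      intro j hj
      exact Dvd.dvd.mul_left
        (Int.natCast_dvd_natCast.mpr (stepA j hj (fun h => hoX (h ▸ hj)))) _
    rw [← hy, hy1] at hS
    have h1 : (m : ℤ) ∣ 1 := by
      rcases hε with h | h
      · rw [h] at hS
        simpa using hS
      · rw [h] at hS
        simpa using hS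
    have h5 := Int.le_of_dvd (by norm_num) h1
    omega

example {ι : Type*} (p e t n : ℕ) (hp : p.Prime) (hp2 : p ≠ 2)
    (het : e * t = p - 1) (he2 : 2 ≤ e) (hn : 1 ≤ n) (hND : ND p n)
    (X Y : Finset ι) (o : ι) (deg : ι → ℕ) (δ : ι → ℤ) (ε : ℤ)
    (hdisj : Disjoint X Y) (hcX : X.card = e) (hcY : Y.card = t)
    (ho : o ∈ X ∨ o ∈ Y) (hdo : deg o = 1)
    (hone : ∀ i, i ∈ X ∨ i ∈ Y → deg i = 1 → i = o)
    (hδ : ∀ i ∈ X, δ i = 1 ∨ δ i = -1)
    (hdX : ∀ i ∈ X, (deg i : ℤ) ≡ δ i [ZMOD p])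
    (hε : ε = 1 ∨ ε = -1)
    (hdY : ∀ i ∈ Y, (deg i : ℤ) ≡ ε * (e : ℤ) [ZMOD p])
    (hYeq : ∀ i ∈ Y, ∀ j ∈ Y, deg i = deg j)
    (hrel : ∀ i ∈ Y, ε * (deg i : ℤ) = ∑ j ∈ X, δ j * (deg j : ℤ))
    (hdvdX : ∀ i ∈ X, deg i ∣ e * (1 + n * p))
    (hdvdY : ∀ i ∈ Y, deg i ∣ e * (1 + n * p)) :
    (∃ i ∈ X, δ i = -1 ∧ deg i = p - 1) ∨ (t = 1 ∧ ε = 1 ∧ ∃ i ∈ Y, deg i = p - 1) :=
  exists_minus_degree p e t n hp hp2 het he2 hn hND X Y o deg δ ε hdisj hcX hcY ho hdo hone hδ hdX
    hε hdY hYeq hrel hdvdX hdvdY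

end Cfsg.Agent.H40.BRQ

#print axioms Cfsg.Agent.H40.BRQ.exists_minus_degree
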