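import Mathlib
import Cfsg.Prelude.Def_Blocks
import Cfsg.Prelude.Def_Characters
import Cfsg.Prelude.Def_Solvable
import Cfsg.Prelude.Def_CaseTheorems
import Cfsg.Agent.H21.BRMDefs
import Cfsg.Agent.H67.BRCore
import Cfsg.Agent.H67.BRSimple

/-!
# S4700-CORE (helper40, for helper21)

`O_{p'}(G)` has order prime to `p`, and the quotient by it has no nontrivial normal `p'`-subgroup.
-/

set_option autoImplicit false

namespace Cfsg.Agent.H40.BRQ

open Cfsg Cfsg.Agent.H21.BR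

theorem pPrimeCore_facts {G : Type*} [Group G] [Finite G] (p : ℕ) [Fact p.Prime] :
    ¬ p ∣ Nat.card (Cfsg.pPrimeCore p G) ∧
      ∀ M : Subgroup (G ⧸ Cfsg.pPrimeCore p G), M.Normal → ¬ p ∣ Nat.card M → M = ⊥ := by
  have hp : p.Prime := Fact.out
  have heq : Cfsg.pPrimeCore p G = Cfsg.Agent.H67.BR.ppCore p G := by
    unfold Cfsg.pPrimeCore Cfsg.Agent.H67.BR.ppCore
    congr 1
    ext N
    simp only [Set.mem_setOf_eq]
    rw [Nat.coprime_comm, hp.coprime_iff_not_dvd]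
  have h1 : ¬ p ∣ Nat.card (Cfsg.pPrimeCore p G) := by
    rw [heq]
    exact Cfsg.Agent.H67.BR.not_dvd_card_ppCore p G
  refine ⟨h1, fun M hM hpM => ?_⟩
  exact Cfsg.Agent.H67.BR.quot_core p (Cfsg.pPrimeCore p G) h1
    (fun L hL hKL hpL => le_antisymm (by
      rw [heq]
      exact Cfsg.Agent.H67.BR.le_ppCore p hL hpL) hKL) M hM hpM

example {G : Type*} [Group G] [Finite G] (p : ℕ) [Fact p.Prime] :
    ¬ p ∣ Nat.card (Cfsg.pPrimeCore p G) ∧
      ∀ M : Subgroup (G ⧸ Cfsg.pPrimeCore p G), M.Normal → ¬ p ∣ Nat.card M → M = ⊥ :=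
  pPrimeCore_facts p

end Cfsg.Agent.H40.BRQ

#print axioms Cfsg.Agent.H40.BRQ.pPrimeCore_facts
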