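import Cfsg.Agent.H72.ZasFrobDefs

/-!
# S3359 piece PC: a finite non-solvable group has a nontrivial perfect normal subgroup
-/

set_option autoImplicit false

namespace Cfsg.Agent.H40.Zas

open Cfsg.Agent.H72.Zas

universe u

theorem stPc : StPc.{u} := by
  intro G _ _ hns
  classical
  have hex : ∃ k n, Nat.card (derivedSeries G n) = k := ⟨_, 0, rfl⟩
  obtain ⟨n, hn⟩ := Nat.find_spec hex
  have hmin : ∀ m, Nat.card (derivedSeries G n) ≤ Nat.card (derivedSeries G m) := by
    intro m
    rw [hn]
    exact Nat.find_min' hex ⟨m, rfl⟩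
  have hle : derivedSeries G (n + 1) ≤ derivedSeries G n :=
    derivedSeries_antitone G (Nat.le_succ n)
  have heq : derivedSeries G (n + 1) = derivedSeries G n :=
    Subgroup.eq_of_le_of_card_ge hle (hmin (n + 1))
  refine ⟨derivedSeries G n, inferInstance, ?_, ?_⟩
  · apply Subgroup.map_injective (derivedSeries G n).subtype_injective
    rw [commutator_def, Subgroup.map_commutator, ← MonoidHom.range_eq_map,
      Subgroup.range_subtype, ← derivedSeries_succ, heq]
  · intro hbot
    exact hns ((Group.isSolvable_def G).mpr ⟨n, hbot⟩)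

end Cfsg.Agent.H40.Zas
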