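import Cfsg.Agent.H72.Fg7Defs
import Cfsg.Agent.H40.ZasFPc

/-!
# S4118 piece Q9: the normalizer of `H` is solvable (from Q9a and Q9b)
-/

set_option autoImplicit false

namespace Cfsg.Agent.H40.Zas

open Cfsg.Agent.H72.Zas

universe u

theorem perfect_of_surjective {D A : Type*} [Group D] [Group A] (f : D →* A)
    (hf : Function.Surjective f) (h : commutator D = ⊤) : commutator A = ⊤ := by
  rw [commutator_def] at h ⊢
  have := congrArg (Subgroup.map f) h
  rw [Subgroup.map_commutator, Subgroup.map_top_of_surjective f hf] at this
  exact this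

theorem subsingleton_of_perfect_solvable {A : Type*} [Group A] (hs : Group.IsSolvable A)
    (h : commutator A = ⊤) : Subsingleton A := by
  obtain ⟨n, hn⟩ := (Group.isSolvable_def A).mp hs
  have hall : ∀ k, derivedSeries A k = ⊤ := by
    intro k
    induction k with
    | zero => rfl
    | succ k ih => rw [derivedSeries_succ, ih, ← commutator_def, h]
  rw [hall n] at hn
  exact Subgroup.subsingleton_iff.mp (subsingleton_of_bot_eq_top hn.symm)

theorem stQ9 (h9a : StQ9a.{u}) (h9b : StQ9b.{u}) : StQ9.{u} := by
  intro G _ _ H O hHsolv hZ hcop hOn hOsolv hOcop hOmax hON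
  classical
  have hH'card : Nat.card (H.subgroupOf (Subgroup.normalizer (H : Set G))) = Nat.card H :=
    Nat.card_congr (Subgroup.subgroupOfEquivOfLe Subgroup.le_normalizer).toEquiv
  obtain ⟨B, hB⟩ := Subgroup.exists_right_complement'_of_coprime
    (N := H.subgroupOf (Subgroup.normalizer (H : Set G))) (by rw [hH'card]; exact hcop)
  have hBcard : Nat.card B = (H.subgroupOf (Subgroup.normalizer (H : Set G))).index :=
    hB.symm.index_eq_card.symm
  -- the complement is solvable
  have hBsolv : Group.IsSolvable B := by
    by_contra hns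
    obtain ⟨D, hDn, hDperf, hDne⟩ := stPc ↥B hns
    obtain ⟨A, hA⟩ : ∃ A : Subgroup G,
        A = (D.map B.subtype).map (Subgroup.normalizer (H : Set G)).subtype := ⟨_, rfl⟩
    have hinj : Function.Injective
        ((Subgroup.normalizer (H : Set G)).subtype.comp B.subtype) :=
      (Subgroup.subtype_injective _).comp (Subgroup.subtype_injective _)
    have hA' : A = D.map ((Subgroup.normalizer (H : Set G)).subtype.comp B.subtype) := by
      rw [hA, Subgroup.map_map]
    have e := D.equivMapOfInjective _ hinj
    rw [← hA'] at e
    have hAperf : commutator A = ⊤ := perfect_of_surjective (e : ↥D →* ↥A) e.surjective hDperf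
    have hAcard : Nat.card A = Nat.card D := (Nat.card_congr e.toEquiv).symm
    have hAN : A ≤ Subgroup.normalizer (H : Set G) := by
      rw [hA]
      exact Subgroup.map_subtype_le _
    have hAnorm : ∀ a ∈ A, ∀ x ∈ H, a * x * a⁻¹ ∈ H := by
      intro a ha x hx
      exact (Subgroup.mem_normalizer_iff.mp (hAN ha) x).mp hx
    have hAcop : (Nat.card A).Coprime (Nat.card H) := by
      have hd : Nat.card A ∣ (H.subgroupOf (Subgroup.normalizer (H : Set G))).index := by
        rw [hAcard, ← hBcard]
        exact Subgroup.card_subgroup_dvd_card D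
      exact (Nat.Coprime.coprime_dvd_right hd hcop).symm
    have hcent := h9a G H A hHsolv hZ hAnorm hAperf hAcop
    have hAO : A ≤ O := h9b G H O A hcop hOn hOcop hOmax hON hAperf hcent
    have hAsolv : Group.IsSolvable A :=
      Group.isSolvable_of_isSolvable_injective (Subgroup.inclusion_injective hAO)
    have hAsub : Subsingleton A := subsingleton_of_perfect_solvable hAsolv hAperf
    have hDsub : Subsingleton D := e.toEquiv.subsingleton
    apply hDne
    rw [Subgroup.eq_bot_iff_forall]
    intro d hd
    have := Subsingleton.elim (⟨d, hd⟩ : D) 1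
    exact congrArg Subtype.val this
  -- the normalizer is solvable
  have hH'solv : Group.IsSolvable (H.subgroupOf (Subgroup.normalizer (H : Set G))) :=
    Group.isSolvable_of_isSolvable_injective
      (f := (Subgroup.subgroupOfEquivOfLe (Subgroup.le_normalizer (H := H))).toMonoidHom)
      (MulEquiv.injective _)
  have hsurj : Function.Surjective
      ((QuotientGroup.mk' (H.subgroupOf (Subgroup.normalizer (H : Set G)))).comp B.subtype) := by
    intro q
    obtain ⟨n, rfl⟩ := QuotientGroup.mk'_surjective _ q
    obtain ⟨⟨h, b⟩, hhb, -⟩ := hB.existsUnique n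
    refine ⟨b, ?_⟩
    simp only [MonoidHom.comp_apply, Subgroup.subtype_apply, QuotientGroup.mk'_apply]
    rw [QuotientGroup.eq]
    have : (b : ↥(Subgroup.normalizer (H : Set G)))⁻¹ * n =
        (b : ↥(Subgroup.normalizer (H : Set G)))⁻¹ * h * b := by
      rw [← hhb]; group
    rw [this]
    have hmem := (inferInstance :
      (H.subgroupOf (Subgroup.normalizer (H : Set G))).Normal).conj_mem h h.2
        (b : ↥(Subgroup.normalizer (H : Set G)))⁻¹
    rw [inv_inv] at hmem
    exact hmem
  have hQsolv : Group.IsSolvable
      (↥(Subgroup.normalizer (H : Set G)) ⧸ H.subgroupOf (Subgroup.normalizer (H : Set G))) :=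
    Group.isSolvable_of_surjective hsurj
  exact Group.isSolvable_of_ker_le_range
    (H.subgroupOf (Subgroup.normalizer (H : Set G))).subtype
    (QuotientGroup.mk' (H.subgroupOf (Subgroup.normalizer (H : Set G))))
    (by rw [QuotientGroup.ker_mk', Subgroup.range_subtype])

end Cfsg.Agent.H40.Zas
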