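import Cfsg.Agent.H72.Fg7Defs
import Cfsg.Agent.S0023
import Cfsg.Agent.H16.ZasSyl

/-!
# S4118 piece Q9a: a perfect group acting coprimely on a solvable group with `ZasAx`
acts trivially (from Q8)
-/

set_option autoImplicit false

namespace Cfsg.Agent.H40.Zas

open Cfsg.Agent.H72.Zas

universe u

theorem stQ9a (h8 : StQ8.{u}) : StQ9a.{u} := by
  intro G _ _ H A hsolv hZ hnorm hperf hcop a ha x hx
  classical
  have hAN : A ≤ Subgroup.normalizer (H : Set G) := by
    intro b hb
    rw [Subgroup.mem_normalizer_iff]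
    intro h
    constructor
    · exact hnorm b hb h
    · intro hh
      have := hnorm b⁻¹ (A.inv_mem hb) _ hh
      simpa [mul_assoc] using this
  have key : ∀ p : ℕ, p.Prime →
      ¬ p ∣ ((H ⊓ Subgroup.centralizer (A : Set G)).subgroupOf H).index := by
    intro p hp
    have : Fact p.Prime := ⟨hp⟩
    obtain ⟨P, hP⟩ := Cfsg.Agent.S0023.result A H hAN hcop (Or.inr hsolv) p
    have hstruct : IsCyclic ((P : Subgroup H).map H.subtype) ∨ (Odd (Nat.card A) ∧
        ∃ n : ℕ, 1 ≤ n ∧
          Nonempty (((P : Subgroup H).map H.subtype) ≃* QuaternionGroup (2 ^ n))) := by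
      have e' := (P : Subgroup H).equivMapOfInjective H.subtype H.subtype_injective
      rcases Cfsg.Agent.H16.Zas.part1 hZ p (P : Subgroup H) P.isPGroup' with hc | ⟨rfl, n, hn, ⟨e⟩⟩
      · left
        have : IsCyclic (P : Subgroup H) := hc
        exact isCyclic_of_surjective (e' : ↥(P : Subgroup H) →* _) e'.surjective
      · right
        refine ⟨?_, n, hn, ⟨e'.symm.trans e⟩⟩
        have hne : NeZero (2 ^ n) := ⟨by positivity⟩
        have hcardP : Nat.card (P : Subgroup H) = 4 * 2 ^ n := by
          rw [Nat.card_congr e.toEquiv, Nat.card_eq_fintype_card, QuaternionGroup.card]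
        have h2P : 2 ∣ Nat.card (P : Subgroup H) := by
          rw [hcardP]
          exact Dvd.dvd.mul_right (by norm_num) _
        have h2H : 2 ∣ Nat.card H := h2P.trans (Subgroup.card_subgroup_dvd_card _)
        have hc2 : Nat.Coprime (Nat.card A) 2 := Nat.Coprime.coprime_dvd_right h2H hcop
        exact Nat.coprime_two_right.mp hc2
    have hcent := h8 G A ((P : Subgroup H).map H.subtype)
      (fun b hb y hy => (Subgroup.mem_normalizer_iff.mp (hP hb) y).mp hy) hperf hstruct
    have hPC : (P : Subgroup H).map H.subtype ≤ H ⊓ Subgroup.centralizer (A : Set G) := by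
      intro y hy
      refine Subgroup.mem_inf.mpr ⟨Subgroup.map_subtype_le _ hy, ?_⟩
      rw [Subgroup.mem_centralizer_iff]
      intro b hb
      exact hcent b hb y hy
    have hle : (P : Subgroup H) ≤ (H ⊓ Subgroup.centralizer (A : Set G)).subgroupOf H :=
      Subgroup.map_le_iff_le_comap.mp hPC
    have hd := Subgroup.index_dvd_of_le hle
    intro hpd
    exact P.not_dvd_index (hpd.trans hd)
  have h1 : (H ⊓ Subgroup.centralizer (A : Set G)).relIndex H = 1 :=
    Nat.eq_one_iff_not_exists_prime_dvd.mpr key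
  have hHC : H ≤ H ⊓ Subgroup.centralizer (A : Set G) := Subgroup.relIndex_eq_one.mp h1
  have hxc := (Subgroup.mem_inf.mp (hHC hx)).2
  rw [Subgroup.mem_centralizer_iff] at hxc
  exact hxc a ha

end Cfsg.Agent.H40.Zas
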