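import Mathlib

/-!
# Piece S4588-QF: an integral quadratic form bound
-/

namespace Cfsg.Agent.H40.K0

theorem quad_form_bound {ι : Type*} (s : Finset ι) (p e t : ℕ) (het : e * t + 1 = p) (ht : 1 ≤ t)
    (hcard : s.card = e) (w : ι → ℤ) (hw : ∀ i ∈ s, w i = 1 ∨ w i = -1)
    (v : ι → ℤ) (hv : ∃ i ∈ s, v i ≠ 0) :
    (e : ℤ) ≤ p * ∑ i ∈ s, v i ^ 2 - t * (∑ i ∈ s, w i * v i) ^ 2 := by
  classical
  obtain ⟨T, hT⟩ : ∃ T : Finset ι, T = s.filter (fun i => v i ≠ 0) := ⟨_, rfl⟩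
  have hTs : T ⊆ s := hT ▸ Finset.filter_subset _ _
  have hQ : ∑ i ∈ s, v i ^ 2 = ∑ i ∈ T, v i ^ 2 := by
    rw [hT, Finset.sum_filter]
    apply Finset.sum_congr rfl
    intro i _
    by_cases h : v i = 0
    · simp [h]
    · simp [h]
  have hL : ∑ i ∈ s, w i * v i = ∑ i ∈ T, w i * v i := by
    rw [hT, Finset.sum_filter]
    apply Finset.sum_congr rfl
    intro i _
    by_cases h : v i = 0
    · simp [h]
    · simp [h]
  have hm1 : 1 ≤ T.card := by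
    obtain ⟨i, hi, hvi⟩ := hv
    exact Finset.card_pos.mpr ⟨i, hT ▸ Finset.mem_filter.mpr ⟨hi, hvi⟩⟩
  have hme : T.card ≤ e := hcard ▸ Finset.card_le_card hTs
  have hQm : (T.card : ℤ) ≤ ∑ i ∈ T, v i ^ 2 := by
    have h1 : ∀ i ∈ T, (1 : ℤ) ≤ v i ^ 2 := by
      intro i hi
      have hvi : v i ≠ 0 := by
        rw [hT] at hi
        exact (Finset.mem_filter.mp hi).2
      have h2 : 0 < v i ^ 2 := by positivity
      exact Int.add_one_le_iff.mpr h2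
    calc (T.card : ℤ) = ∑ i ∈ T, (1 : ℤ) := by simp
      _ ≤ ∑ i ∈ T, v i ^ 2 := Finset.sum_le_sum h1
  have hCS : (∑ i ∈ T, w i * v i) ^ 2 ≤ (T.card : ℤ) * ∑ i ∈ T, v i ^ 2 := by
    have h1 := Finset.sum_mul_sq_le_sq_mul_sq T w v
    have h2 : ∑ i ∈ T, w i ^ 2 = (T.card : ℤ) := by
      have h3 : ∀ i ∈ T, w i ^ 2 = 1 := by
        intro i hi
        rcases hw i (hTs hi) with h | h <;> rw [h] <;> norm_num
      rw [Finset.sum_congr rfl h3]
      simp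
    rw [h2] at h1
    exact h1
  rw [hQ, hL]
  have hp : (p : ℤ) = e * t + 1 := by exact_mod_cast het.symm
  have hM1 : (1 : ℤ) ≤ (T.card : ℤ) := by exact_mod_cast hm1
  have hME : (T.card : ℤ) ≤ e := by exact_mod_cast hme
  have ht' : (1 : ℤ) ≤ t := by exact_mod_cast ht
  rw [hp]
  generalize (T.card : ℤ) = M at *
  generalize ∑ i ∈ T, v i ^ 2 = Q at *
  generalize ∑ i ∈ T, w i * v i = L at *
  generalize (e : ℤ) = E at *
  generalize (t : ℤ) = Tt at *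
  have h1 : Tt * L ^ 2 ≤ Tt * (M * Q) := mul_le_mul_of_nonneg_left hCS (by linarith)
  have h0 : 0 ≤ Tt * (E - M) := mul_nonneg (by linarith) (by linarith)
  have h2 : (Tt * (E - M) + 1) * M ≤ (Tt * (E - M) + 1) * Q :=
    mul_le_mul_of_nonneg_left hQm (by linarith)
  have h4 : 1 ≤ Tt * M := by nlinarith
  have h3 : (E - M) * 1 ≤ (E - M) * (Tt * M) :=
    mul_le_mul_of_nonneg_left h4 (by linarith)
  nlinarith [h1, h2, h3]

end Cfsg.Agent.H40.K0
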