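import Mathlib

/-!
# Piece S4588-TR: a trace bound for lattices over `ℤ[ζ_p]`
-/

namespace Cfsg.Agent.H40.K0

open Finset
open scoped ComplexConjugate

/-- Orthogonality of the powers of a primitive `p`-th root of unity. -/
theorem geom_orth {p : ℕ} (hp : p.Prime) {ζ : ℂ} (hζ : IsPrimitiveRoot ζ p) {c c' : ℕ}
    (hc : c < p) (hc' : c' < p) :
    ∑ γ ∈ range p, ζ ^ (γ * c) * conj (ζ ^ (γ * c')) = if c = c' then (p : ℂ) else 0 := by
  have hnorm : ‖ζ‖ = 1 := hζ.norm'_eq_one hp.ne_zero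
  have hconj : conj ζ = ζ⁻¹ := (Complex.inv_eq_conj hnorm).symm
  have hζp : ζ ^ p = 1 := hζ.pow_eq_one
  have hζ0 : ζ ≠ 0 := hζ.ne_zero hp.ne_zero
  have hterm : ∀ γ : ℕ, ζ ^ (γ * c) * conj (ζ ^ (γ * c')) = (ζ ^ c * (ζ⁻¹) ^ c') ^ γ := by
    intro γ
    rw [map_pow, hconj, mul_pow, ← pow_mul, ← pow_mul, mul_comm c γ, mul_comm c' γ]
  rw [Finset.sum_congr rfl (fun γ _ => hterm γ)]
  split_ifs with h
  · subst h
    have h1 : ζ ^ c * (ζ⁻¹) ^ c = 1 := by
      rw [← mul_pow, mul_inv_cancel₀ hζ0, one_pow]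
    rw [h1]
    simp
  · have h1 : ζ ^ c * (ζ⁻¹) ^ c' ≠ 1 := by
      intro h2
      apply h
      have h3 : ζ ^ c = ζ ^ c' := by
        have h4 : ζ ^ c * (ζ⁻¹) ^ c' * ζ ^ c' = ζ ^ c' := by rw [h2, one_mul]
        rw [mul_assoc, ← mul_pow, inv_mul_cancel₀ hζ0, one_pow, mul_one] at h4
        exact h4
      exact hζ.pow_inj hc hc' h3
    have h2 : (ζ ^ c * (ζ⁻¹) ^ c') ^ p = 1 := by
      rw [mul_pow, ← pow_mul, ← pow_mul, mul_comm c p, mul_comm c' p, pow_mul, pow_mul, hζp,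
        inv_pow, hζp]
      simp
    have h3 := geom_sum_mul (ζ ^ c * (ζ⁻¹) ^ c') p
    rw [h2, sub_self] at h3
    rcases mul_eq_zero.mp h3 with h4 | h4
    · exact h4
    · exact absurd (sub_eq_zero.mp h4) h1

/-- Parseval's identity for the discrete Fourier transform on `ZMod p` (complex form). -/
theorem parseval {p : ℕ} (hp : p.Prime) {ζ : ℂ} (hζ : IsPrimitiveRoot ζ p) (a : ℕ → ℂ) :
    ∑ γ ∈ range p, (∑ c ∈ range p, ζ ^ (γ * c) * a c) * conj (∑ c ∈ range p, ζ ^ (γ * c) * a c)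
      = (p : ℂ) * ∑ c ∈ range p, a c * conj (a c) := by
  have h1 : ∀ γ : ℕ, (∑ c ∈ range p, ζ ^ (γ * c) * a c) *
      conj (∑ c ∈ range p, ζ ^ (γ * c) * a c) =
      ∑ c ∈ range p, ∑ c' ∈ range p,
        (a c * conj (a c')) * (ζ ^ (γ * c) * conj (ζ ^ (γ * c'))) := by
    intro γ
    rw [map_sum, Finset.sum_mul_sum]
    apply Finset.sum_congr rfl
    intro c _
    apply Finset.sum_congr rfl
    intro c' _
    rw [map_mul]
    ring
  rw [Finset.sum_congr rfl (fun γ _ => h1 γ), Finset.sum_comm]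
  rw [Finset.mul_sum]
  apply Finset.sum_congr rfl
  intro c hc
  rw [Finset.sum_comm]
  have h2 : ∀ c' ∈ range p, ∑ γ ∈ range p,
      (a c * conj (a c')) * (ζ ^ (γ * c) * conj (ζ ^ (γ * c'))) =
      if c = c' then (a c * conj (a c')) * (p : ℂ) else 0 := by
    intro c' hc'
    rw [← Finset.mul_sum, geom_orth hp hζ (Finset.mem_range.mp hc) (Finset.mem_range.mp hc')]
    split_ifs <;> simp
  rw [Finset.sum_congr rfl h2, Finset.sum_ite_eq (range p) c, if_pos hc]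
  ring

/-- Lagrange's identity (complex form). -/
theorem lagrange (p : ℕ) (a : ℕ → ℂ) :
    ∑ c ∈ range p, ∑ c' ∈ range p, (a c - a c') * conj (a c - a c') =
      2 * ((p : ℂ) * ∑ c ∈ range p, a c * conj (a c)) -
        2 * ((∑ c ∈ range p, a c) * conj (∑ c ∈ range p, a c)) := by
  have h1 : ∀ c c' : ℕ, (a c - a c') * conj (a c - a c') =
      a c * conj (a c) + a c' * conj (a c') - a c * conj (a c') - conj (a c) * a c' := by
    intro c c'
    rw [map_sub]; ring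
  simp only [h1, Finset.sum_add_distrib, Finset.sum_sub_distrib, Finset.sum_const,
    Finset.card_range, nsmul_eq_mul, ← Finset.mul_sum, ← Finset.sum_mul, map_sum]
  ring

/-- The trace identity: `2 ∑_{γ=1}^{p-1} |∑_c ζ^{γc} a_c|² = ∑_{c,c'} |a_c - a_{c'}|²`. -/
theorem trace_identity {p : ℕ} (hp : p.Prime) {ζ : ℂ} (hζ : IsPrimitiveRoot ζ p) (a : ℕ → ℂ) :
    2 * ∑ γ ∈ Ico 1 p, ‖∑ c ∈ range p, ζ ^ (γ * c) * a c‖ ^ 2 =
      ∑ c ∈ range p, ∑ c' ∈ range p, ‖a c - a c'‖ ^ 2 := by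
  apply Complex.ofReal_injective
  push_cast
  simp only [← Complex.mul_conj']
  rw [lagrange, Finset.sum_Ico_eq_sub _ hp.one_lt.le, parseval hp hζ, Finset.sum_range_one]
  simp only [zero_mul, pow_zero, one_mul]
  ring

set_option linter.unusedVariables false in
theorem trace_lattice_bound {X J : Type*} [Fintype X] (s : Finset J) (f : J → X → ℂ)
    (n : J → ℕ) (e : J → ℕ) (p : ℕ) (hp : p.Prime) (ζ : ℂ) (hζ : IsPrimitiveRoot ζ p)
    (α : ℝ) (hα : 0 ≤ α)
    (hlat : ∀ u : J → ℤ, (∑ j ∈ s, (u j : ℂ) • f j) ≠ 0 →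
      α ≤ ∑ x, ‖(∑ j ∈ s, (u j : ℂ) • f j) x‖ ^ 2)
    (hne : (∑ j ∈ s, ((n j : ℂ) * ζ ^ e j) • f j) ≠ 0) :
    ((p : ℝ) - 1) * α ≤
      ∑ γ ∈ Finset.Ico 1 p, ∑ x, ‖(∑ j ∈ s, ((n j : ℂ) * (ζ ^ γ) ^ e j) • f j) x‖ ^ 2 := by
  classical
  have hζp : ζ ^ p = 1 := hζ.pow_eq_one
  -- the residue-class components
  obtain ⟨W, hW⟩ : ∃ W : ℕ → X → ℂ,
      W = fun c => ∑ j ∈ s, (if e j % p = c then (n j : ℂ) else 0) • f j := ⟨_, rfl⟩
  have hA : ∀ γ : ℕ, ∑ j ∈ s, ((n j : ℂ) * (ζ ^ γ) ^ e j) • f j =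
      ∑ c ∈ range p, ζ ^ (γ * c) • W c := by
    intro γ
    rw [hW]
    simp only [Finset.smul_sum, smul_smul]
    rw [Finset.sum_comm]
    apply Finset.sum_congr rfl
    intro j _
    rw [← Finset.sum_smul]
    congr 1
    have h1 : ∀ c ∈ range p, ζ ^ (γ * c) * (if e j % p = c then (n j : ℂ) else 0) =
        if e j % p = c then ζ ^ (γ * c) * (n j : ℂ) else 0 := by
      intro c _
      split_ifs <;> simp
    rw [Finset.sum_congr rfl h1, Finset.sum_ite_eq (range p) (e j % p),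
      if_pos (Finset.mem_range.mpr (Nat.mod_lt _ hp.pos))]
    have h2 : (ζ ^ γ) ^ e j = ζ ^ (γ * (e j % p)) := by
      rw [← pow_mul]
      conv_lhs => rw [← Nat.div_add_mod (e j) p]
      rw [mul_add, pow_add, ← mul_assoc, mul_comm γ p, mul_assoc, pow_mul, hζp, one_pow,
        one_mul]
    rw [h2]; ring
  have hB : ∀ (γ : ℕ) (x : X), (∑ j ∈ s, ((n j : ℂ) * (ζ ^ γ) ^ e j) • f j) x =
      ∑ c ∈ range p, ζ ^ (γ * c) * W c x := by
    intro γ x
    rw [hA γ, Finset.sum_apply]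
    rfl
  obtain ⟨N, hN⟩ : ∃ N : ℕ → ℕ → ℝ, N = fun c c' => ∑ x, ‖W c x - W c' x‖ ^ 2 := ⟨_, rfl⟩
  have hNnn : ∀ c c', 0 ≤ N c c' := by
    intro c c'
    rw [hN]
    exact Finset.sum_nonneg (fun x _ => by positivity)
  have hNα : ∀ c c', W c ≠ W c' → α ≤ N c c' := by
    intro c c' hne'
    obtain ⟨u, hu⟩ : ∃ u : J → ℤ, u = fun j =>
        (if e j % p = c then (n j : ℤ) else 0) - (if e j % p = c' then (n j : ℤ) else 0) :=
      ⟨_, rfl⟩
    have hu' : ∑ j ∈ s, (u j : ℂ) • f j = W c - W c' := by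
      rw [hW, hu]
      simp only
      rw [← Finset.sum_sub_distrib]
      apply Finset.sum_congr rfl
      intro j _
      rw [← sub_smul]
      congr 1
      push_cast
      split_ifs <;> simp
    have h1 := hlat u (by rw [hu']; exact sub_ne_zero.mpr hne')
    rw [hu'] at h1
    rw [hN]
    exact h1
  -- rewrite the right-hand side
  have hR : 2 * ∑ γ ∈ Finset.Ico 1 p, ∑ x, ‖(∑ j ∈ s, ((n j : ℂ) * (ζ ^ γ) ^ e j) • f j) x‖ ^ 2
      = ∑ c ∈ range p, ∑ c' ∈ range p, N c c' := by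
    simp only [hB]
    rw [Finset.sum_comm, Finset.mul_sum]
    rw [hN]
    simp only
    have h1 : ∀ c ∈ range p, ∑ c' ∈ range p, ∑ x, ‖W c x - W c' x‖ ^ 2 =
        ∑ x, ∑ c' ∈ range p, ‖W c x - W c' x‖ ^ 2 := fun c _ => Finset.sum_comm
    rw [Finset.sum_congr rfl h1, Finset.sum_comm]
    apply Finset.sum_congr rfl
    intro x _
    exact trace_identity hp hζ (fun c => W c x)
  -- two distinct components
  have h0p : 0 ∈ range p := Finset.mem_range.mpr hp.pos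
  obtain ⟨c₁, hc₁, hc₁W⟩ : ∃ c ∈ range p, W c ≠ W 0 := by
    by_contra hcon
    push Not at hcon
    apply hne
    have h1 := hA 1
    simp only [pow_one, one_mul] at h1
    rw [h1, Finset.sum_congr rfl (fun c hc => by rw [hcon c hc] :
      ∀ c ∈ range p, ζ ^ c • W c = ζ ^ c • W 0), ← Finset.sum_smul,
      hζ.geom_sum_eq_zero hp.one_lt, zero_smul]
  have hc₁0 : c₁ ≠ 0 := fun h => hc₁W (by rw [h])
  -- row sums
  have hrow : ∀ c ∈ range p, α ≤ N c 0 + N c c₁ := by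
    intro c _
    by_cases h : W c = W 0
    · have h1 : W c ≠ W c₁ := fun h2 => hc₁W (h2.symm.trans h)
      linarith [hNα c c₁ h1, hNnn c 0]
    · linarith [hNα c 0 h, hNnn c c₁]
  have hcol : ∀ c ∈ range p, α ≤ N 0 c + N c₁ c := by
    intro c _
    by_cases h : W 0 = W c
    · have h1 : W c₁ ≠ W c := fun h2 => hc₁W (h2.trans h.symm)
      linarith [hNα c₁ c h1, hNnn 0 c]
    · linarith [hNα 0 c h, hNnn c₁ c]
  have hpair : ({0, c₁} : Finset ℕ) ⊆ range p := by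
    intro c hc
    rcases Finset.mem_insert.mp hc with rfl | hc
    · exact h0p
    · rw [Finset.mem_singleton] at hc
      rw [hc]; exact hc₁
  have hsplit : ∑ c ∈ range p, ∑ c' ∈ range p, N c c' =
      ∑ c ∈ range p \ {0, c₁}, ∑ c' ∈ range p, N c c' +
        (∑ c' ∈ range p, N 0 c' + ∑ c' ∈ range p, N c₁ c') := by
    rw [← Finset.sum_sdiff hpair, Finset.sum_pair (Ne.symm hc₁0)]
  have hpart1 : ((p : ℝ) - 2) * α ≤ ∑ c ∈ range p \ {0, c₁}, ∑ c' ∈ range p, N c c' := by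
    have hcard : (range p \ {0, c₁}).card = p - 2 := by
      rw [Finset.card_sdiff_of_subset hpair, Finset.card_range, Finset.card_pair (Ne.symm hc₁0)]
    have h1 : ∀ c ∈ range p \ {0, c₁}, α ≤ ∑ c' ∈ range p, N c c' := by
      intro c hc
      have hc' : c ∈ range p := (Finset.mem_sdiff.mp hc).1
      have h2 : N c 0 + N c c₁ ≤ ∑ c' ∈ range p, N c c' := by
        rw [← Finset.sum_pair (Ne.symm hc₁0) (f := fun c' => N c c')]
        exact Finset.sum_le_sum_of_subset_of_nonneg hpair (fun c' _ _ => hNnn c c')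
      linarith [hrow c hc']
    have h3 := Finset.card_nsmul_le_sum (range p \ {0, c₁}) _ α h1
    rw [hcard, nsmul_eq_mul] at h3
    have h4 : ((p - 2 : ℕ) : ℝ) = (p : ℝ) - 2 := by
      rw [Nat.cast_sub hp.two_le]; norm_num
    rw [h4] at h3
    exact h3
  have hpart2 : (p : ℝ) * α ≤ ∑ c' ∈ range p, N 0 c' + ∑ c' ∈ range p, N c₁ c' := by
    rw [← Finset.sum_add_distrib]
    have h3 := Finset.card_nsmul_le_sum (range p) _ α hcol
    rw [Finset.card_range, nsmul_eq_mul] at h3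
    exact h3
  have hfin : 2 * (((p : ℝ) - 1) * α) ≤ ∑ c ∈ range p, ∑ c' ∈ range p, N c c' := by
    rw [hsplit]
    linarith
  rw [← hR] at hfin
  linarith

end Cfsg.Agent.H40.K0
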