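import Mathlib
import Cfsg.Agent.H64.MgDefs

/-!
# MG-CLS (helper40, for helper64's S3620)

Divisibility from a largest proper `JC` subset: the translates of `Δ` under the pointwise
stabilizer of `W` meet pairwise exactly in `W` and cover everything.
-/

set_option autoImplicit false
open scoped Pointwise
open MulAction

namespace Cfsg.Agent.H40.Mg

open Cfsg.Agent.H64.Mg

universe u v

theorem cls : CLSStmt.{u, v} := by
  intro M α _ _ _ _ Δ W hΔ hW hWΔ hmax hcard
  classical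
  have hWsub : W ⊆ Δ := hWΔ.subset
  have hWle : W.card ≤ Δ.card := Finset.card_le_card hWsub
  have hΔle : Δ.card ≤ Fintype.card α := Finset.card_le_univ Δ
  -- the family of translates
  obtain ⟨P, hPdef⟩ : ∃ P : Finset (Finset α), P = (Finset.univ : Finset (Finset α)).filter
      (fun T => ∃ g : M, (∀ z ∈ W, g • z = z) ∧ g • Δ = T) := ⟨_, rfl⟩
  have hmem : ∀ T, T ∈ P ↔ ∃ g : M, (∀ z ∈ W, g • z = z) ∧ g • Δ = T := by
    intro T
    rw [hPdef]
    simp
  have hsubT : ∀ T ∈ P, W ⊆ T := by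
    intro T hT
    obtain ⟨g, hg, rfl⟩ := (hmem T).mp hT
    intro z hz
    rw [← hg z hz]
    exact Finset.smul_mem_smul_finset (hWsub hz)
  have hcardT : ∀ T ∈ P, T.card = Δ.card := by
    intro T hT
    obtain ⟨g, hg, rfl⟩ := (hmem T).mp hT
    exact Finset.card_smul_finset g Δ
  -- two distinct translates meet in `W`
  have hinter : ∀ T₁ ∈ P, ∀ T₂ ∈ P, T₁ ≠ T₂ → T₁ ∩ T₂ = W := by
    intro T₁ hT₁ T₂ hT₂ hne
    have hWX : W ⊆ T₁ ∩ T₂ := Finset.subset_inter (hsubT T₁ hT₁) (hsubT T₂ hT₂)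
    have hc1 := hcardT T₁ hT₁
    have hc2 := hcardT T₂ hT₂
    obtain ⟨g₁, hg₁, rfl⟩ := (hmem T₁).mp hT₁
    obtain ⟨g₂, hg₂, rfl⟩ := (hmem T₂).mp hT₂
    have hJ1 : JC M (g₁ • Δ) := JC.smul hΔ g₁
    have hJ2 : JC M (g₂ • Δ) := JC.smul hΔ g₂
    have hz : ∃ z, z ∉ g₁ • Δ ∧ z ∉ g₂ • Δ := by
      have h1 := Finset.card_union_add_card_inter (g₁ • Δ) (g₂ • Δ)
      have h2 := Finset.card_le_card hWX
      have h3 : (g₁ • Δ ∪ g₂ • Δ).card < (Finset.univ : Finset α).card := by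
        rw [Finset.card_univ]
        omega
      obtain ⟨z, _, hz⟩ := Finset.exists_mem_notMem_of_card_lt_card h3
      rw [Finset.mem_union, not_or] at hz
      exact ⟨z, hz⟩
    have hX : JC M (g₁ • Δ ∩ g₂ • Δ) := JC.inter hJ1 hJ2 hz
    have hXne : g₁ • Δ ∩ g₂ • Δ ≠ g₁ • Δ := by
      intro h
      apply hne
      apply Finset.eq_of_subset_of_card_le
      · rw [← h]
        exact Finset.inter_subset_right
      · rw [hc1, hc2]
    have hXlt : (g₁ • Δ ∩ g₂ • Δ).card < Δ.card := by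
      rw [← hc1]
      exact Finset.card_lt_card (lt_of_le_of_ne Finset.inter_subset_left hXne)
    have hJ3 : JC M (g₁⁻¹ • (g₁ • Δ ∩ g₂ • Δ)) := JC.smul hX g₁⁻¹
    have hsub3 : g₁⁻¹ • (g₁ • Δ ∩ g₂ • Δ) ⊂ Δ := by
      rw [Finset.ssubset_iff_subset_ne]
      constructor
      · intro z hz
        rw [Finset.mem_smul_finset] at hz
        obtain ⟨w, hw, rfl⟩ := hz
        have hw1 := (Finset.mem_inter.mp hw).1
        rw [Finset.mem_smul_finset] at hw1
        obtain ⟨d, hd, rfl⟩ := hw1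
        rw [inv_smul_smul]
        exact hd
      · intro h
        have h4 := congrArg Finset.card h
        rw [Finset.card_smul_finset] at h4
        omega
    have h5 := hmax _ hsub3 hJ3
    rw [Finset.card_smul_finset] at h5
    exact (Finset.eq_of_subset_of_card_le hWX h5).symm
  -- covering
  obtain ⟨x₀, hx₀Δ, hx₀W⟩ := Finset.exists_of_ssubset hWΔ
  have hcov : ∀ y, y ∉ W → ∃ T ∈ P, y ∈ T := by
    intro y hy
    obtain ⟨g, hg, hgx⟩ := hW x₀ hx₀W y hy
    refine ⟨g • Δ, (hmem _).mpr ⟨g, hg, rfl⟩, ?_⟩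
    rw [← hgx]
    exact Finset.smul_mem_smul_finset hx₀Δ
  have hbi : P.biUnion (fun T => T \ W) = Finset.univ \ W := by
    ext y
    simp only [Finset.mem_biUnion, Finset.mem_sdiff, Finset.mem_univ, true_and]
    constructor
    · rintro ⟨T, _, _, hyW⟩
      exact hyW
    · intro hyW
      obtain ⟨T, hT, hyT⟩ := hcov y hyW
      exact ⟨T, hT, hyT, hyW⟩
  have hdisj : ∀ T₁ ∈ P, ∀ T₂ ∈ P, T₁ ≠ T₂ → Disjoint (T₁ \ W) (T₂ \ W) := by
    intro T₁ hT₁ T₂ hT₂ hne
    rw [Finset.disjoint_left]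
    intro y hy1 hy2
    rw [Finset.mem_sdiff] at hy1 hy2
    apply hy1.2
    rw [← hinter T₁ hT₁ T₂ hT₂ hne]
    exact Finset.mem_inter.mpr ⟨hy1.1, hy2.1⟩
  have hcount : Fintype.card α - W.card = P.card * (Δ.card - W.card) := by
    rw [← Finset.card_univ, ← Finset.card_sdiff_of_subset (Finset.subset_univ W), ← hbi,
      Finset.card_biUnion hdisj]
    rw [Finset.sum_congr rfl (fun T hT => by
      rw [Finset.card_sdiff_of_subset (hsubT T hT), hcardT T hT]),
      Finset.sum_const, smul_eq_mul]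
  have hdvd : (Δ.card - W.card) ∣ (Fintype.card α - W.card) := ⟨P.card, by
    rw [hcount, mul_comm]⟩
  have he : Fintype.card α - Δ.card = (Fintype.card α - W.card) - (Δ.card - W.card) := by omega
  rw [he]
  exact Nat.dvd_sub hdvd (dvd_refl _)

example : CLSStmt.{u, v} := cls

end Cfsg.Agent.H40.Mg

#print axioms Cfsg.Agent.H40.Mg.cls
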