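import Mathlib
import Cfsg.Agent.H64.MgDefs

/-!
# MG-CNTC (helper40, for helper64's S3620)

Counting in a 2-design, second case.
-/

set_option autoImplicit false

namespace Cfsg.Agent.H40.Mg

open Cfsg.Agent.H64.Mg

universe v

theorem cntC : CNTCStmt.{v} := by
  intro α _ _ 𝒯 m lam hm hlam hlam1 hm2 a x C hxa hxC haC hsub
  classical
  -- the points outside `C` other than `a`
  obtain ⟨Y, hY⟩ : ∃ Y : Finset α, Y = Finset.univ \ insert a C := ⟨_, rfl⟩
  have hYmem : ∀ y, y ∈ Y ↔ y ≠ a ∧ y ∉ C := by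
    intro y
    rw [hY]
    simp
  have hYcard : Y.card = Fintype.card α - (C.card + 1) := by
    rw [hY, Finset.card_sdiff_of_subset (Finset.subset_univ _), Finset.card_univ,
      Finset.card_insert_of_notMem haC]
  -- the members through `x` and `a`
  obtain ⟨𝒮, h𝒮⟩ : ∃ 𝒮 : Finset (Finset α), 𝒮 = 𝒯.filter (fun T => x ∈ T ∧ a ∈ T) := ⟨_, rfl⟩
  have h𝒮card : 𝒮.card = lam := by rw [h𝒮]; exact hlam x a hxa
  have hdc := Finset.sum_card_bipartiteAbove_eq_sum_card_bipartiteBelow (s := Y) (t := 𝒮)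
    (r := fun (y : α) (T : Finset α) => y ∈ T)
  have hL : ∀ y ∈ Y, (Finset.bipartiteAbove (fun (y : α) (T : Finset α) => y ∈ T) 𝒮 y).card
      = lam := by
    intro y hy
    rw [hYmem] at hy
    have hxy : x ≠ y := by
      rintro rfl
      exact hy.2 hxC
    rw [← hlam x y hxy]
    congr 1
    ext T
    simp only [Finset.bipartiteAbove, Finset.mem_filter, h𝒮]
    constructor
    · rintro ⟨⟨hT, hxT, _⟩, hyT⟩
      exact ⟨hT, hxT, hyT⟩
    · rintro ⟨hT, hxT, hyT⟩
      refine ⟨⟨hT, hxT, ?_⟩, hyT⟩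
      by_contra haT
      exact hy.2 (hsub T hT haT hxT hyT)
  have hR : ∀ T ∈ 𝒮, (Finset.bipartiteBelow (fun (y : α) (T : Finset α) => y ∈ T) Y T).card
      ≤ m - 2 := by
    intro T hT
    rw [h𝒮, Finset.mem_filter] at hT
    obtain ⟨hT, hxT, haT⟩ := hT
    have hsub2 : ({x, a} : Finset α) ⊆ T := by
      intro z hz
      rw [Finset.mem_insert, Finset.mem_singleton] at hz
      rcases hz with rfl | rfl
      · exact hxT
      · exact haT
    have hc : (T \ {x, a}).card = m - 2 := by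
      rw [Finset.card_sdiff_of_subset hsub2, hm T hT, Finset.card_pair hxa]
    rw [← hc]
    apply Finset.card_le_card
    intro y hy
    simp only [Finset.bipartiteBelow, Finset.mem_filter] at hy
    obtain ⟨hyY, hyT⟩ := hy
    rw [hYmem] at hyY
    rw [Finset.mem_sdiff, Finset.mem_insert, Finset.mem_singleton]
    refine ⟨hyT, ?_⟩
    rintro (rfl | rfl)
    · exact hyY.2 hxC
    · exact hyY.1 rfl
  have h1 : Y.card * lam ≤ lam * (m - 2) := by
    calc Y.card * lam
        = ∑ y ∈ Y, (Finset.bipartiteAbove (fun (y : α) (T : Finset α) => y ∈ T) 𝒮 y).card := by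
          rw [Finset.sum_congr rfl hL, Finset.sum_const, smul_eq_mul]
      _ = ∑ T ∈ 𝒮, (Finset.bipartiteBelow (fun (y : α) (T : Finset α) => y ∈ T) Y T).card := hdc
      _ ≤ ∑ _T ∈ 𝒮, (m - 2) := Finset.sum_le_sum hR
      _ = lam * (m - 2) := by rw [Finset.sum_const, smul_eq_mul, h𝒮card]
  have h2 : Y.card ≤ m - 2 := by
    rw [mul_comm] at h1
    exact Nat.le_of_mul_le_mul_left h1 (by omega)
  rw [hYcard] at h2
  omega

example : CNTCStmt.{v} := cntC

end Cfsg.Agent.H40.Mg

#print axioms Cfsg.Agent.H40.Mg.cntC
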