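import Mathlib
import Cfsg.Agent.H69.RSDefs

/-!
# S2361, piece RS-ARITH (helper40): a prime `p > 3` dividing `|²G₂(q)|` divides one of the four
torus orders.
-/

set_option autoImplicit false

namespace Cfsg.Agent.H40.RS

open Cfsg.Agent.H45.S8 Cfsg.Agent.H69.RS

/-- `q = 3^(2m+1) = 24 a + 3`. -/
theorem qq_form (m : ℕ) : ∃ a : ℕ, qq m = 24 * a + 3 := by
  have h : ∃ a : ℕ, 9 ^ m = 8 * a + 1 := by
    induction m with
    | zero => exact ⟨0, by norm_num⟩
    | succ n ih =>
      obtain ⟨a, ha⟩ := ih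
      exact ⟨9 * a + 1, by rw [pow_succ, ha]; ring⟩
  obtain ⟨a, ha⟩ := h
  refine ⟨a, ?_⟩
  unfold qq
  rw [pow_succ, pow_mul, show (3 : ℕ) ^ 2 = 9 by norm_num, ha]
  ring

/-- `q = 3 (s+1)²`, `r = 3 (s+1)` with `s + 1 = 3^m`. -/
theorem qq_rr_shape (m : ℕ) : ∃ s : ℕ, qq m = 3 * (s + 1) ^ 2 ∧ rr m = 3 * (s + 1) := by
  obtain ⟨s, hs⟩ : ∃ s, 3 ^ m = s + 1 :=
    ⟨3 ^ m - 1, by have := Nat.one_le_pow m 3 (by norm_num); omega⟩
  refine ⟨s, ?_, ?_⟩
  · unfold qq
    rw [pow_succ, pow_mul', hs]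
    ring
  · unfold rr
    rw [pow_succ, hs]
    ring

/-- `q³ + 1 = (q + 1)(q - r + 1)(q + r + 1)`. -/
theorem cube_factor (m : ℕ) :
    qq m ^ 3 + 1 = (qq m + 1) * (qq m - rr m + 1) * (qq m + rr m + 1) := by
  obtain ⟨s, hq, hr⟩ := qq_rr_shape m
  have hsub : qq m - rr m + 1 = 3 * s ^ 2 + 3 * s + 1 := by
    have : qq m = (3 * s ^ 2 + 3 * s) + rr m := by rw [hq, hr]; ring
    rw [this, Nat.add_sub_cancel]
  rw [hsub, hq, hr]
  ring

/-- **RS-ARITH.** -/
theorem arith : StArith := by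
  intro m p hp h3 hdvd
  obtain ⟨a, ha⟩ := qq_form m
  have h1 : qq m - 1 = 2 * ((qq m - 1) / 2) := by omega
  have h2 : qq m + 1 = 4 * ((qq m + 1) / 4) := by omega
  have hp2 : ¬ p ∣ 2 := fun h => by
    have := Nat.le_of_dvd (by norm_num) h
    omega
  unfold GG at hdvd
  rcases (Nat.Prime.dvd_mul hp).mp hdvd with h | h
  · rcases (Nat.Prime.dvd_mul hp).mp h with h | h
    · exfalso
      have h' : p ∣ qq m := hp.dvd_of_dvd_pow h
      unfold qq at h'
      have h'' : p ∣ 3 := hp.dvd_of_dvd_pow h'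
      have := Nat.le_of_dvd (by norm_num) h''
      omega
    · left
      rw [h1] at h
      rcases (Nat.Prime.dvd_mul hp).mp h with h | h
      · exact absurd h hp2
      · exact h
  · rw [cube_factor] at h
    rcases (Nat.Prime.dvd_mul hp).mp h with h | h
    · rcases (Nat.Prime.dvd_mul hp).mp h with h | h
      · right; left
        rw [h2] at h
        rcases (Nat.Prime.dvd_mul hp).mp h with h | h
        · exfalso
          have h4 : p ∣ 2 * 2 := h
          rcases (Nat.Prime.dvd_mul hp).mp h4 with h | h <;> exact hp2 h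
        · exact h
      · right; right; left
        exact h
    · right; right; right
      exact h

example : StArith := arith

end Cfsg.Agent.H40.RS
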