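import Mathlib
import Cfsg.Agent.H69.RSDefs

/-!
# S2361, piece RS-TORUS (helper40): the normaliser of a non-trivial `p`-subgroup is the normaliser
of a conjugate of the cyclic Hall subgroup `A`.
-/

set_option autoImplicit false

namespace Cfsg.Agent.H40.RS

open Cfsg.Agent.H69.RS

universe u

/-- Normalisers of conjugate subgroups: if `H' = g H g⁻¹` (stated by membership), then
`x ∈ N(H') ↔ g⁻¹ x g ∈ N(H)`. -/
theorem mem_normalizer_conj {G : Type u} [Group G] (H H' : Subgroup G) (g : G)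
    (hH : ∀ y, y ∈ H' ↔ g⁻¹ * y * g ∈ H) (x : G) :
    x ∈ Subgroup.normalizer (H' : Set G) ↔ g⁻¹ * x * g ∈ Subgroup.normalizer (H : Set G) := by
  rw [Subgroup.mem_normalizer_iff, Subgroup.mem_normalizer_iff]
  constructor
  · intro hx n'
    have h1 := hx (g * n' * g⁻¹)
    rw [hH, hH] at h1
    have e1 : g⁻¹ * (g * n' * g⁻¹) * g = n' := by group
    have e2 : g⁻¹ * (x * (g * n' * g⁻¹) * x⁻¹) * g = g⁻¹ * x * g * n' * (g⁻¹ * x * g)⁻¹ := by
      group
    rw [e1, e2] at h1
    exact h1
  · intro hx n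
    have h1 := hx (g⁻¹ * n * g)
    rw [hH, hH]
    have e2 : g⁻¹ * x * g * (g⁻¹ * n * g) * (g⁻¹ * x * g)⁻¹ = g⁻¹ * (x * n * x⁻¹) * g := by
      group
    rw [e2] at h1
    exact h1

/-- **RS-TORUS.** -/
theorem torus : StTorus.{u} := by
  intro G _ _ A hAc hHall hNA p hp hpA N hN hNne
  classical
  have : Fact p.Prime := ⟨hp⟩
  -- the `p`-part of `|G|` is that of `|A|`
  have hAdvdG : Nat.card A ∣ Nat.card G := Subgroup.card_subgroup_dvd_card A
  have hApos : 0 < Nat.card A := Nat.card_pos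
  have hGeq : Nat.card G = Nat.card A * (Nat.card G / Nat.card A) :=
    (Nat.mul_div_cancel' hAdvdG).symm
  have hpn : ¬ p ∣ Nat.card G / Nat.card A := by
    intro h
    have := Nat.dvd_gcd hpA h
    rw [Nat.Coprime.gcd_eq_one hHall] at this
    exact hp.one_lt.ne' (Nat.dvd_one.mp this)
  have hquot_ne : Nat.card G / Nat.card A ≠ 0 := by
    intro h
    rw [h, mul_zero] at hGeq
    exact (Nat.card_pos (α := G)).ne' hGeq
  have hfac : (Nat.card G).factorization p = (Nat.card A).factorization p := by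
    rw [hGeq, Nat.factorization_mul hApos.ne' hquot_ne]
    simp [Nat.factorization_eq_zero_of_not_dvd hpn]
  -- a Sylow `p`-subgroup of `A` is a Sylow `p`-subgroup of `G`
  obtain ⟨Q⟩ : Nonempty (Sylow p ↥A) := inferInstance
  have hQcard : Nat.card ((Q : Subgroup ↥A).map A.subtype) = p ^ (Nat.card G).factorization p := by
    rw [Subgroup.card_map_of_injective (Subgroup.subtype_injective A), hfac]
    exact Q.card_eq_multiplicity
  have hQle : (Q : Subgroup ↥A).map A.subtype ≤ A := by
    rintro _ ⟨y, -, rfl⟩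
    exact y.2
  set Qs : Sylow p G := Sylow.ofCard ((Q : Subgroup ↥A).map A.subtype) hQcard with hQs
  obtain ⟨P, hNP⟩ := hN.exists_le_sylow
  obtain ⟨g, hg⟩ := MulAction.exists_smul_eq G Qs P
  have hNA' : ∀ n ∈ N, g⁻¹ * n * g ∈ A := by
    intro n hn
    have h1 : n ∈ (P : Subgroup G) := hNP hn
    rw [← hg, Sylow.coe_subgroup_smul, Subgroup.mem_pointwise_smul_iff_inv_smul_mem] at h1
    have h2 : (MulAut.conj g)⁻¹ • n = g⁻¹ * n * g := by
      rw [MulAut.smul_def, MulAut.conj_inv_apply]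
    rw [h2] at h1
    exact hQle h1
  -- the conjugate `A' = g A g⁻¹`
  refine ⟨A.map (MulAut.conj g).toMonoidHom, ?_, ?_, ?_⟩
  · exact ((MulAut.conj g).subgroupMap A).isCyclic.mp hAc
  · exact (Nat.card_congr ((MulAut.conj g).subgroupMap A).toEquiv).symm
  · have hA' : ∀ y, y ∈ A.map (MulAut.conj g).toMonoidHom ↔ g⁻¹ * y * g ∈ A := by
      intro y
      rw [Subgroup.mem_map_equiv, MulAut.conj_symm_apply]
    -- `N₀ = g⁻¹ N g ≤ A`
    have hN0 : ∀ y, y ∈ N ↔ g⁻¹ * y * g ∈ N.comap (MulAut.conj g).toMonoidHom := by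
      intro y
      rw [Subgroup.mem_comap]
      have e : (MulAut.conj g).toMonoidHom (g⁻¹ * y * g) = y := by
        show (MulAut.conj g) (g⁻¹ * y * g) = y
        rw [MulAut.conj_apply]
        group
      rw [e]
    have hN0le : N.comap (MulAut.conj g).toMonoidHom ≤ A := by
      intro z hz
      rw [Subgroup.mem_comap] at hz
      have hz' : g * z * g⁻¹ ∈ N := hz
      have := hNA' _ hz'
      have e : g⁻¹ * (g * z * g⁻¹) * g = z := by group
      rwa [e] at this
    have hN0ne : N.comap (MulAut.conj g).toMonoidHom ≠ ⊥ := by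
      intro h
      apply hNne
      rw [eq_bot_iff]
      intro n hn
      have h1 := (hN0 n).mp hn
      rw [h, Subgroup.mem_bot] at h1
      rw [Subgroup.mem_bot]
      have e : n = g * (g⁻¹ * n * g) * g⁻¹ := by group
      rw [e, h1]
      group
    have hkey := hNA _ hN0le hN0ne
    ext x
    rw [mem_normalizer_conj _ N g hN0 x, hkey, ← mem_normalizer_conj A _ g hA' x]

example : StTorus.{u} := torus

end Cfsg.Agent.H40.RS
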