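import Mathlib
import Cfsg.Agent.H17.TgDefs
import Cfsg.Agent.H11.G168A
import Cfsg.Agent.H59.UniqueOrderP

/-!
# S1904, piece TG-E8 (helper40): a nonabelian group of order 8 with `[X, A] = X` is quaternion.
-/

set_option autoImplicit false

namespace Cfsg.Agent.H40.Tg

open Cfsg.Agent.H17.Tg

universe u

/-- A group of order `8` and exponent dividing `4` with a unique involution is the quaternion
group (as in `Cfsg.Agent.S0827.quat_of_facts`, restated here to keep the import closure
small). -/
theorem quat_of_facts' {Q : Type u} [Group Q] [Finite Q] (hcard : Nat.card Q = 8)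
    (h4 : ∀ y : Q, y ^ 4 = 1) (u : Q) (hu : ∀ y : Q, y ≠ 1 → y * y = 1 → y = u) :
    Nonempty (Q ≃* QuaternionGroup 2) := by
  have hP : IsPGroup 2 Q := by
    intro y
    exact ⟨2, by rw [show (2 : ℕ) ^ 2 = 4 by norm_num]; exact h4 y⟩
  have huniq : ∀ H K : Subgroup Q, Nat.card H = 2 → Nat.card K = 2 → H = K := by
    have key : ∀ H : Subgroup Q, Nat.card H = 2 → ∀ z : Q, z ∈ H ↔ z = 1 ∨ z = u := by
      intro H hH z
      have hsq : ∀ y : Q, y ∈ H → y * y = 1 := by
        intro y hy
        have h1 : orderOf (⟨y, hy⟩ : H) ∣ Nat.card H := orderOf_dvd_natCard _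
        rw [hH] at h1
        have h2 := orderOf_dvd_iff_pow_eq_one.mp h1
        have h3 := congrArg (fun w : H => (w : Q)) h2
        simp only [Subgroup.coe_pow, Subgroup.coe_one] at h3
        rw [← pow_two]
        exact h3
      have hne : H ≠ ⊥ := by
        intro hb
        rw [hb, Subgroup.card_bot] at hH
        omega
      obtain ⟨a, ha1⟩ := (Subgroup.ne_bot_iff_exists_ne_one).mp hne
      have ha : (a : Q) ∈ H := a.2
      have hau : (a : Q) = u := hu a (fun e => ha1 (Subtype.ext e)) (hsq a ha)
      constructor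
      · intro hz
        by_cases hz1 : z = 1
        · left; exact hz1
        · right; exact hu z hz1 (hsq z hz)
      · rintro (rfl | rfl)
        · exact H.one_mem
        · rw [← hau]; exact ha
    intro H K hH hK
    ext z
    rw [key H hH, key K hK]
  have hncyc : ¬ IsCyclic Q := by
    intro hc
    obtain ⟨y, hy⟩ := hc.exists_generator
    have h1 : orderOf y = Nat.card Q := orderOf_eq_card_of_forall_mem_zpowers hy
    have h2 : orderOf y ∣ 4 := orderOf_dvd_of_pow_eq_one (h4 y)
    rw [h1, hcard] at h2
    norm_num at h2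
  obtain ⟨n, ⟨e⟩⟩ := Cfsg.Agent.H59.quaternion_of_unique_two hP huniq hncyc
  have hn : n = 1 := by
    have h1 : Nat.card Q = Nat.card (QuaternionGroup (2 ^ n)) := Nat.card_congr e.toEquiv
    rw [hcard, Nat.card_eq_fintype_card, QuaternionGroup.card] at h1
    have h2 : 2 ^ n = 2 ^ 1 := by omega
    exact Nat.pow_right_injective (le_refl 2) h2
  subst hn
  exact ⟨e⟩

/-- **TG-E8.** -/
theorem e8 : StE8.{u} := by
  intro X _ _ A hA hcard hnc
  classical
  obtain ⟨x, hx⟩ := Cfsg.Agent.H11.G168.order8_exists_order4 hcard hnc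
  obtain ⟨hinv, hcen⟩ := Cfsg.Agent.H11.G168.order8_struct hcard hnc hx
  have hx4 : x ^ 4 = 1 := by rw [← hx]; exact pow_orderOf_eq_one x
  have hx2 : x * x ≠ 1 := by
    intro h
    have : orderOf x ∣ 2 := orderOf_dvd_of_pow_eq_one (by rw [pow_two]; exact h)
    rw [hx] at this
    norm_num at this
  have hx33 : x ^ 3 * x ^ 3 = x * x := by
    have : x ^ 3 * x ^ 3 = x ^ 4 * (x * x) := by group
    rw [this, hx4, one_mul]
  have hHcard : Nat.card (Subgroup.zpowers x) = 4 := by rw [Nat.card_zpowers, hx]
  have hidx : (Subgroup.zpowers x).index = 2 := by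
    have := Subgroup.card_mul_index (Subgroup.zpowers x)
    rw [hHcard, hcard] at this
    omega
  have hinvH : ∀ t : X, t ∉ Subgroup.zpowers x → ∀ h ∈ Subgroup.zpowers x,
      t * h * t⁻¹ = h⁻¹ := by
    intro t ht h hh
    obtain ⟨i, rfl⟩ := Subgroup.mem_zpowers_iff.mp hh
    have := hinv t ht
    rw [← MulAut.conj_apply, map_zpow, MulAut.conj_apply, this, inv_zpow]
  have hsqH : ∀ t : X, t * t ∈ Subgroup.zpowers x :=
    fun t => Subgroup.mul_self_mem_of_index_two hidx t
  have hsq : ∀ t : X, t ∉ Subgroup.zpowers x → t * t = 1 ∨ t * t = x * x := by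
    intro t ht
    have h1 := hinvH t ht (t * t) (hsqH t)
    have h2 : t * (t * t) * t⁻¹ = t * t := by group
    rw [h2] at h1
    obtain ⟨r, hr, hrt⟩ := Cfsg.Agent.H11.G168.exists_pow_of_mem_zpowers
      (by norm_num : 0 < 4) hx4 (hsqH t)
    have h3 : (t * t) * (t * t) = 1 := by
      nth_rewrite 2 [h1]
      exact mul_inv_cancel _
    rw [hrt] at h3 ⊢
    interval_cases r
    · left; simp
    · exfalso
      apply hx2
      simpa using h3
    · right; rw [pow_two]
    · exfalso
      apply hx2
      rw [hx33] at h3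
      exact h3
  have hno : ∀ t : X, t ∉ Subgroup.zpowers x → t * t = x * x := by
    intro t ht
    rcases hsq t ht with h1 | h1
    · exfalso
      have hall : ∀ s : X, s ∉ Subgroup.zpowers x → s * s = 1 := by
        intro s hs
        have hts : t⁻¹ * s ∈ Subgroup.zpowers x := by
          rw [Subgroup.mul_mem_iff_of_index_two hidx, inv_mem_iff]
          exact iff_of_false ht hs
        have hs' : s = t * (t⁻¹ * s) := by group
        have hth := hinvH t ht (t⁻¹ * s) hts
        have htinv : t⁻¹ = t := inv_eq_of_mul_eq_one_left h1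
        rw [hs']
        calc t * (t⁻¹ * s) * (t * (t⁻¹ * s)) = (t * (t⁻¹ * s) * t⁻¹) * (t⁻¹ * s) := by
              rw [htinv]; group
          _ = 1 := by rw [hth]; group
      have hpres : ∀ ψ : MulAut X, ∀ h ∈ Subgroup.zpowers x, ψ h ∈ Subgroup.zpowers x := by
        intro ψ h hh
        obtain ⟨i, rfl⟩ := Subgroup.mem_zpowers_iff.mp hh
        rw [map_zpow]
        apply Subgroup.zpow_mem
        by_contra hψ
        have h5 := hall (ψ x) hψ
        rw [← map_mul] at h5
        exact hx2 ((MulEquiv.map_eq_one_iff ψ).mp h5)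
      have hgen : Subgroup.closure {g : X | ∃ φ ∈ A, ∃ y : X, g = y⁻¹ * φ y} ≤
          Subgroup.zpowers x := by
        rw [Subgroup.closure_le]
        rintro g ⟨φ, hφ, y, rfl⟩
        show y⁻¹ * φ y ∈ Subgroup.zpowers x
        rw [Subgroup.mul_mem_iff_of_index_two hidx, inv_mem_iff]
        constructor
        · intro hy
          exact hpres φ y hy
        · intro hy
          have := hpres φ⁻¹ (φ y) hy
          simpa using this
      rw [hA.gen] at hgen
      have hc : Nat.card (Subgroup.zpowers x) = Nat.card X := by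
        rw [top_le_iff.mp hgen]
        exact Subgroup.card_top
      omega
    · exact h1
  apply quat_of_facts' hcard ?_ (x * x) ?_
  · intro y
    by_cases hy : y ∈ Subgroup.zpowers x
    · obtain ⟨i, rfl⟩ := Subgroup.mem_zpowers_iff.mp hy
      rw [← zpow_natCast, ← zpow_mul, mul_comm, zpow_mul, zpow_natCast, hx4, one_zpow]
    · have := hno y hy
      calc y ^ 4 = (y * y) * (y * y) := by
            simp only [pow_succ, pow_zero, one_mul, mul_assoc]
        _ = x ^ 4 := by
            rw [this]
            simp only [pow_succ, pow_zero, one_mul, mul_assoc]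
        _ = 1 := hx4
  · intro y hy1 hyy
    by_cases hy : y ∈ Subgroup.zpowers x
    · obtain ⟨r, hr, rfl⟩ := Cfsg.Agent.H11.G168.exists_pow_of_mem_zpowers
        (by norm_num : 0 < 4) hx4 hy
      interval_cases r
      · simp at hy1
      · exfalso
        apply hx2
        simpa using hyy
      · rw [pow_two]
      · exfalso
        apply hx2
        rw [hx33] at hyy
        exact hyy
    · exfalso
      exact hx2 ((hno y hy).symm.trans hyy)

example : StE8.{u} := e8

end Cfsg.Agent.H40.Tg
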