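import Mathlib.GroupTheory.Sylow
import Mathlib.GroupTheory.Index
import Mathlib.GroupTheory.Coset.Basic
import Mathlib.GroupTheory.GroupAction.Quotient
import Mathlib.Algebra.BigOperators.Group.Finset.Basic

/-!
# The trace (relative norm) map and a splitting of fixed points (helper40)

`trace_split`: a group `Γ` acts on an abelian group `A`, `P ≤ Γ` has finite index prime to the
orders of the `Γ`-fixed elements of `A`.  Then the `Γ`-fixed points are a direct factor of the
`P`-fixed points.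
-/

set_option autoImplicit false

namespace Cfsg.Agent.H40.Tr

section abstract

variable {Γ A : Type*} [Group Γ] [CommGroup A]

theorem trace_split (φ : Γ →* MulAut A) (P : Subgroup Γ) [P.FiniteIndex]
    (hcop : ∀ a : A, (∀ g : Γ, φ g a = a) → (orderOf a).Coprime P.index) :
    ∃ K : Subgroup A, (∀ a ∈ K, ∀ g ∈ P, φ g a = a) ∧ (∀ a ∈ K, (∀ g : Γ, φ g a = a) → a = 1) ∧
      ∀ v : A, (∀ g ∈ P, φ g v = v) → ∃ w : A, (∀ g : Γ, φ g w = w) ∧ v * w⁻¹ ∈ K := by
  classical
  let _ : Fintype (Γ ⧸ P) := Fintype.ofFinite _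
  have hcard : Fintype.card (Γ ⧸ P) = P.index := by
    rw [Subgroup.index_eq_card, Nat.card_eq_fintype_card]
  -- the trace
  let tr : A → A := fun a => ∏ q : Γ ⧸ P, φ (Quotient.out q) a
  have htr_mul : ∀ a b : A, tr (a * b) = tr a * tr b := by
    intro a b
    simp only [tr, map_mul, Finset.prod_mul_distrib]
  have htr_one : tr 1 = 1 := by
    simp only [tr, map_one, Finset.prod_const_one]
  have htr_inv : ∀ a : A, tr a⁻¹ = (tr a)⁻¹ := by
    intro a
    simp only [tr, map_inv, Finset.prod_inv_distrib]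
  have htr_fix : ∀ w : A, (∀ g : Γ, φ g w = w) → tr w = w ^ P.index := by
    intro w hw
    simp only [tr, hw, Finset.prod_const, Finset.card_univ, hcard]
  have htr_mem : ∀ v : A, (∀ g ∈ P, φ g v = v) → ∀ g : Γ, φ g (tr v) = tr v := by
    intro v hv g
    have h1 : φ g (tr v) = ∏ q : Γ ⧸ P, φ (Quotient.out (g • q)) v := by
      simp only [tr]
      rw [map_prod]
      refine Finset.prod_congr rfl (fun q _ => ?_)
      have h2 : ((Quotient.out (g • q) : Γ) : Γ ⧸ P) = ((g * Quotient.out q : Γ) : Γ ⧸ P) := by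
        rw [QuotientGroup.out_eq']
        conv_lhs => rw [← QuotientGroup.out_eq' q]
        rfl
      have h3 : (Quotient.out (g • q))⁻¹ * (g * Quotient.out q) ∈ P := QuotientGroup.eq.mp h2
      have h4 : g * Quotient.out q =
          Quotient.out (g • q) * ((Quotient.out (g • q))⁻¹ * (g * Quotient.out q)) := by group
      calc φ g (φ (Quotient.out q) v) = φ (g * Quotient.out q) v := by
            rw [map_mul]; rfl
        _ = φ (Quotient.out (g • q)) (φ ((Quotient.out (g • q))⁻¹ * (g * Quotient.out q)) v) := by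
            conv_lhs => rw [h4, map_mul]
            rfl
        _ = φ (Quotient.out (g • q)) v := by rw [hv _ h3]
    rw [h1]
    exact Equiv.prod_comp (MulAction.toPerm g : Equiv.Perm (Γ ⧸ P))
      (fun q => φ (Quotient.out q) v)
  -- the complement
  let K : Subgroup A :=
    { carrier := {a | (∀ g ∈ P, φ g a = a) ∧ tr a = 1}
      mul_mem' := by
        rintro a b ⟨ha, ha'⟩ ⟨hb, hb'⟩
        refine ⟨fun g hg => ?_, ?_⟩
        · rw [map_mul, ha g hg, hb g hg]
        · rw [htr_mul, ha', hb', one_mul]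
      one_mem' := ⟨fun g _ => map_one _, htr_one⟩
      inv_mem' := by
        rintro a ⟨ha, ha'⟩
        refine ⟨fun g hg => ?_, ?_⟩
        · rw [map_inv, ha g hg]
        · rw [htr_inv, ha', inv_one] }
  refine ⟨K, fun a ha => ha.1, ?_, ?_⟩
  · intro a ha hfix
    have h1 : a ^ P.index = 1 := by rw [← htr_fix a hfix]; exact ha.2
    have h2 : orderOf a ∣ P.index := orderOf_dvd_of_pow_eq_one h1
    have h3 : orderOf a = 1 := Nat.Coprime.eq_one_of_dvd (hcop a hfix) h2
    exact orderOf_eq_one_iff.mp h3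
  · intro v hv
    have hu := htr_mem v hv
    obtain ⟨k, hk⟩ := exists_pow_eq_self_of_coprime (hcop (tr v) hu).symm
    refine ⟨(tr v) ^ k, fun g => by rw [map_pow, hu g], ?_, ?_⟩
    · intro g hg
      rw [map_mul, map_inv, map_pow, hu g, hv g hg]
    · have h5 : tr ((tr v) ^ k) = ((tr v) ^ k) ^ P.index :=
        htr_fix _ (fun g => by rw [map_pow, hu g])
      have h6 : ((tr v) ^ k) ^ P.index = tr v := by
        rw [← pow_mul, mul_comm, pow_mul]; exact hk
      rw [htr_mul, htr_inv, h5, h6, mul_inv_cancel]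

end abstract

section concrete

variable {G : Type*} [Group G]

/-- The conjugation action of a subgroup `N` on a subgroup `A` that it normalizes. -/
def conjRestr (N A : Subgroup G) (hNA : N ≤ Subgroup.normalizer (A : Set G)) : ↥N →* MulAut ↥A where
  toFun n :=
    { toFun := fun a => ⟨(n : G) * a * (n : G)⁻¹,
        (Subgroup.mem_normalizer_iff.mp (hNA n.2) a).mp a.2⟩
      invFun := fun a => ⟨(n : G)⁻¹ * a * (n : G), by
        have := (Subgroup.mem_normalizer_iff.mp (hNA (N.inv_mem n.2)) a).mp a.2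
        simpa using this⟩
      left_inv := fun a => Subtype.ext (by simp [mul_assoc])
      right_inv := fun a => Subtype.ext (by simp [mul_assoc])
      map_mul' := fun a b => Subtype.ext (by simp [mul_assoc]) }
  map_one' := by ext a; simp
  map_mul' := fun m n => by ext a; simp [mul_assoc]

theorem conjRestr_apply (N A : Subgroup G) (hNA : N ≤ Subgroup.normalizer (A : Set G)) (n : ↥N) (a : ↥A) :
    ((conjRestr N A hNA n a : ↥A) : G) = (n : G) * a * (n : G)⁻¹ := rfl

/-- Let `S` be a Sylow `p`-subgroup of `G`, `S ≤ N ≤ G`, and let `A ≤ S` be an abelian subgroup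
normalized by `N` and containing `Z(S)`.  Then `S ∩ C_G(N)` is a direct factor of `Z(S)`. -/
theorem sylow_center_split [Finite G] {p : ℕ} [Fact p.Prime] (S : Sylow p G) (N A : Subgroup G)
    (hSN : (S : Subgroup G) ≤ N) (hAS : A ≤ S) (hAc : ∀ a ∈ A, ∀ b ∈ A, a * b = b * a)
    (hNA : N ≤ Subgroup.normalizer (A : Set G))
    (hZA : (S : Subgroup G) ⊓ Subgroup.centralizer ((S : Subgroup G) : Set G) ≤ A) :
    ∃ K : Subgroup G, K ≤ (S : Subgroup G) ⊓ Subgroup.centralizer ((S : Subgroup G) : Set G) ∧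
      ((S : Subgroup G) ⊓ Subgroup.centralizer (N : Set G)) ⊓ K = ⊥ ∧
      ((S : Subgroup G) ⊓ Subgroup.centralizer (N : Set G)) ⊔ K =
        (S : Subgroup G) ⊓ Subgroup.centralizer ((S : Subgroup G) : Set G) := by
  let instA : CommGroup ↥A :=
    { (inferInstance : Group ↥A) with mul_comm := fun a b => Subtype.ext (hAc a a.2 b b.2) }
  have hcop : ∀ a : ↥A, (∀ g : ↥N, conjRestr N A hNA g a = a) →
      (orderOf a).Coprime (((S : Subgroup G).subgroupOf N).index) := by
    intro a _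
    obtain ⟨k, hk⟩ := (IsPGroup.iff_orderOf.mp S.isPGroup') ⟨(a : G), hAS a.2⟩
    have h1 : orderOf a = p ^ k := by
      rw [← hk, ← Subgroup.orderOf_coe, ← Subgroup.orderOf_coe]
    rw [h1]
    apply Nat.Coprime.pow_left
    rw [Nat.Prime.coprime_iff_not_dvd Fact.out]
    exact fun h => S.not_dvd_index (h.trans (Subgroup.relIndex_dvd_index_of_le hSN))
  obtain ⟨K0, hK1, hK2, hK3⟩ := trace_split (conjRestr N A hNA) ((S : Subgroup G).subgroupOf N) hcop
  have hCle : (S : Subgroup G) ⊓ Subgroup.centralizer (N : Set G) ≤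
      (S : Subgroup G) ⊓ Subgroup.centralizer ((S : Subgroup G) : Set G) :=
    inf_le_inf_left _ (Subgroup.centralizer_le hSN)
  have hKle : K0.map A.subtype ≤
      (S : Subgroup G) ⊓ Subgroup.centralizer ((S : Subgroup G) : Set G) := by
    rintro x ⟨a, ha, rfl⟩
    refine Subgroup.mem_inf.mpr ⟨hAS a.2, ?_⟩
    rw [Subgroup.mem_centralizer_iff]
    intro s hs
    have h1 := hK1 a ha ⟨s, hSN hs⟩ (Subgroup.mem_subgroupOf.mpr hs)
    have h2 : s * (a : G) * s⁻¹ = a := congrArg Subtype.val h1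
    show s * (a : G) = (a : G) * s
    calc s * (a : G) = s * (a : G) * s⁻¹ * s := by group
      _ = (a : G) * s := by rw [h2]
  refine ⟨K0.map A.subtype, hKle, ?_, ?_⟩
  · rw [eq_bot_iff]
    rintro x hx
    obtain ⟨hx1, a, ha, rfl⟩ := Subgroup.mem_inf.mp hx
    have hxC := (Subgroup.mem_inf.mp hx1).2
    have h1 : a = 1 := by
      apply hK2 a ha
      intro g
      apply Subtype.ext
      rw [conjRestr_apply]
      have h2 := (Subgroup.mem_centralizer_iff.mp hxC) (g : G) g.2
      have h3 : (A.subtype a : G) = (a : G) := rfl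
      rw [h3] at h2
      rw [h2]; group
    rw [h1, map_one]
    exact Subgroup.mem_bot.mpr rfl
  · apply le_antisymm (sup_le hCle hKle)
    intro v hv
    have hvA : v ∈ A := hZA hv
    have hvfix : ∀ g ∈ (S : Subgroup G).subgroupOf N, conjRestr N A hNA g ⟨v, hvA⟩ = ⟨v, hvA⟩ := by
      intro g hg
      apply Subtype.ext
      rw [conjRestr_apply]
      have h2 := (Subgroup.mem_centralizer_iff.mp (Subgroup.mem_inf.mp hv).2) (g : G)
        (Subgroup.mem_subgroupOf.mp hg)
      show (g : G) * v * (g : G)⁻¹ = v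
      rw [h2]; group
    obtain ⟨w, hw1, hw2⟩ := hK3 ⟨v, hvA⟩ hvfix
    have hwmem : (w : G) ∈ (S : Subgroup G) ⊓ Subgroup.centralizer (N : Set G) := by
      refine Subgroup.mem_inf.mpr ⟨hAS w.2, ?_⟩
      rw [Subgroup.mem_centralizer_iff]
      intro n hn
      have h1 : (n : G) * (w : G) * n⁻¹ = w := congrArg Subtype.val (hw1 ⟨n, hn⟩)
      calc n * (w : G) = n * (w : G) * n⁻¹ * n := by group
        _ = (w : G) * n := by rw [h1]
    have hkmem : v * (w : G)⁻¹ ∈ K0.map A.subtype := ⟨_, hw2, rfl⟩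
    have hveq : v = (w : G) * (v * (w : G)⁻¹) := by
      have := hAc _ w.2 _ (A.mul_mem hvA (A.inv_mem w.2))
      rw [this]; group
    rw [hveq]
    exact Subgroup.mul_mem_sup hwmem hkmem

/-- The normalizer of `Q` normalizes `Z(Q)`. -/
theorem normalizer_le_normalizer_center (Q : Subgroup G) :
    Subgroup.normalizer (Q : Set G) ≤
      Subgroup.normalizer ((Q ⊓ Subgroup.centralizer (Q : Set G) : Subgroup G) : Set G) := by
  have key : ∀ n ∈ Subgroup.normalizer (Q : Set G), ∀ h ∈ Q ⊓ Subgroup.centralizer (Q : Set G),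
      n * h * n⁻¹ ∈ Q ⊓ Subgroup.centralizer (Q : Set G) := by
    intro n hn h hh
    obtain ⟨hhQ, hhC⟩ := Subgroup.mem_inf.mp hh
    have hnQ := Subgroup.mem_normalizer_iff.mp hn
    refine Subgroup.mem_inf.mpr ⟨(hnQ h).mp hhQ, ?_⟩
    rw [Subgroup.mem_centralizer_iff]
    intro q hq
    have h1 : n⁻¹ * q * n ∈ Q := by
      rw [hnQ (n⁻¹ * q * n)]
      have : n * (n⁻¹ * q * n) * n⁻¹ = q := by group
      rw [this]; exact hq
    have h2 := (Subgroup.mem_centralizer_iff.mp hhC) _ h1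
    calc q * (n * h * n⁻¹) = n * (n⁻¹ * q * n * h) * n⁻¹ := by group
      _ = n * (h * (n⁻¹ * q * n)) * n⁻¹ := by rw [h2]
      _ = n * h * n⁻¹ * q := by group
  intro n hn
  rw [Subgroup.mem_normalizer_iff]
  intro h
  refine ⟨key n hn h, fun hh => ?_⟩
  have := key n⁻¹ (Subgroup.inv_mem _ hn) _ hh
  have h3 : n⁻¹ * (n * h * n⁻¹) * n⁻¹⁻¹ = h := by group
  rwa [h3] at this

/-- Let `S` be a Sylow `p`-subgroup of `G`, `S ≤ N ≤ G`, `Q ≤ S` normalized by `N` with
`Z(S) ≤ Q`, and suppose that the elements of `S ∩ C_G(N)` are weakly closed in `S`.  Then the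
weakly closed elements of `S` form the subgroup `S ∩ C_G(N)`, a direct factor of `Z(S)`. -/
theorem weakly_closed_split [Finite G] {p : ℕ} [Fact p.Prime] (S : Sylow p G)
    (N Q : Subgroup G) (hSN : (S : Subgroup G) ≤ N) (hQS : Q ≤ S)
    (hNQ : N ≤ Subgroup.normalizer (Q : Set G))
    (hZQ : (S : Subgroup G) ⊓ Subgroup.centralizer ((S : Subgroup G) : Set G) ≤ Q)
    (hwc : ∀ x ∈ (S : Subgroup G) ⊓ Subgroup.centralizer (N : Set G), ∀ g : G,
      g * x * g⁻¹ ∈ (S : Subgroup G) → g * x * g⁻¹ = x) :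
    ∃ W K : Subgroup G, (∀ x : G, x ∈ W ↔ (x ∈ (S : Subgroup G) ∧
        ∀ g : G, g * x * g⁻¹ ∈ (S : Subgroup G) → g * x * g⁻¹ = x)) ∧
      K ≤ ((S : Subgroup G) ⊓ Subgroup.centralizer ((S : Subgroup G) : Set G)) ∧ W ⊓ K = ⊥ ∧
      W ⊔ K = ((S : Subgroup G) ⊓ Subgroup.centralizer ((S : Subgroup G) : Set G)) := by
  have hA1 : Q ⊓ Subgroup.centralizer (Q : Set G) ≤ S := inf_le_left.trans hQS
  have hA2 : ∀ a ∈ Q ⊓ Subgroup.centralizer (Q : Set G),
      ∀ b ∈ Q ⊓ Subgroup.centralizer (Q : Set G), a * b = b * a := fun a ha b hb =>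
    (Subgroup.mem_centralizer_iff.mp (Subgroup.mem_inf.mp hb).2) a (Subgroup.mem_inf.mp ha).1
  have hA3 : N ≤ Subgroup.normalizer ((Q ⊓ Subgroup.centralizer (Q : Set G) : Subgroup G) : Set G) :=
    hNQ.trans (normalizer_le_normalizer_center Q)
  have hA4 : (S : Subgroup G) ⊓ Subgroup.centralizer ((S : Subgroup G) : Set G) ≤
      Q ⊓ Subgroup.centralizer (Q : Set G) :=
    le_inf hZQ (inf_le_right.trans (Subgroup.centralizer_le hQS))
  obtain ⟨K, hK1, hK2, hK3⟩ := sylow_center_split S N _ hSN hA1 hA2 hA3 hA4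
  refine ⟨(S : Subgroup G) ⊓ Subgroup.centralizer (N : Set G), K, ?_, hK1, hK2, hK3⟩
  intro x
  constructor
  · intro hx
    exact ⟨(Subgroup.mem_inf.mp hx).1, hwc x hx⟩
  · rintro ⟨hxS, hx⟩
    have hxZ : x ∈ (S : Subgroup G) ⊓ Subgroup.centralizer ((S : Subgroup G) : Set G) := by
      refine Subgroup.mem_inf.mpr ⟨hxS, ?_⟩
      rw [Subgroup.mem_centralizer_iff]
      intro s hs
      have h1 := hx s (Subgroup.mul_mem _ (Subgroup.mul_mem _ hs hxS) (Subgroup.inv_mem _ hs))
      calc s * x = s * x * s⁻¹ * s := by group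
        _ = x * s := by rw [h1]
    have hxQ := hZQ hxZ
    refine Subgroup.mem_inf.mpr ⟨hxS, ?_⟩
    rw [Subgroup.mem_centralizer_iff]
    intro n hn
    have h1 : n * x * n⁻¹ ∈ Q := (Subgroup.mem_normalizer_iff.mp (hNQ hn) x).mp hxQ
    have h2 := hx n (hQS h1)
    calc n * x = n * x * n⁻¹ * n := by group
      _ = x * n := by rw [h2]

end concrete

end Cfsg.Agent.H40.Tr
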