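import Cfsg.Agent.H40.TraceSplit
import Cfsg.Agent.H40.KInfA
import Cfsg.Agent.H40.WcB

/-!
# Weakly closed elements of `Z(S)` form a direct factor: the case `p` odd (helper40)
-/

set_option autoImplicit false
universe u
open Cfsg

namespace Cfsg.Agent.H40.Tr

theorem weakly_closed_split_odd {G : Type u} [Group G] [Finite G] {p : ℕ} [Fact p.Prime]
    (hp : p ≠ 2) (S : Sylow p G) :
    ∃ W K : Subgroup G, (∀ x : G, x ∈ W ↔ (x ∈ (S : Subgroup G) ∧
        ∀ g : G, g * x * g⁻¹ ∈ (S : Subgroup G) → g * x * g⁻¹ = x)) ∧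
      K ≤ ((S : Subgroup G) ⊓ Subgroup.centralizer ((S : Subgroup G) : Set G)) ∧ W ⊓ K = ⊥ ∧
      W ⊔ K = ((S : Subgroup G) ⊓ Subgroup.centralizer ((S : Subgroup G) : Set G)) := by
  have hW : IsConjugacyFunctor p (inducedFunctor (G := G) kInfLower) :=
    Cfsg.Agent.H40.Sec.isConjugacyFunctor_induced Cfsg.Agent.H40.KInf.isCharPFunctor_kInfLower
  have hWZ : ∀ P : Subgroup G, IsPGroup p ↥P →
      P ⊓ Subgroup.centralizer ((P : Subgroup G) : Set G) ≤ inducedFunctor kInfLower P :=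
    fun P hP => Cfsg.Agent.H40.KInf.center_le_induced_kInfLower P hP
  have hS : Cfsg.Agent.H39.SylIn p (S : Subgroup G) ⊤ :=
    ⟨le_top, S.isPGroup', by rw [Subgroup.relIndex_top_right]; exact S.not_dvd_index⟩
  have hwc := Cfsg.Agent.H40.Sec.wc_elt_claim hW hWZ (by
    intro H T hTH hT hidx hn
    obtain ⟨g, hgT, hgQ, hquad⟩ := Cfsg.Agent.H40.KInf.hloc_kInfLower H T hTH hT hidx hn
    refine ⟨g, hgT, hgQ, ?_⟩
    intro U V _ hU
    have h2 : 2 ≤ p - 1 := by
      have := (Fact.out : p.Prime).two_le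
      omega
    have h3 := Cfsg.Agent.H40.KInf.iterCommutator_eq_bot_of_two _ _ hquad (p - 1) h2
    exact ((Cfsg.Agent.H40.KInf.iterCommutator_mono hU _ _).trans (le_of_eq h3)).trans bot_le)
    _ ⊤ (S : Subgroup G) rfl hS
  refine weakly_closed_split S
    (⊤ ⊓ Subgroup.normalizer ((inducedFunctor kInfLower (S : Subgroup G) : Subgroup G) : Set G))
    (inducedFunctor kInfLower (S : Subgroup G)) ?_ ?_ inf_le_right (hWZ _ S.isPGroup') ?_
  · exact le_inf le_top
      (Subgroup.le_normalizer.trans (Cfsg.Agent.H39.cf_normalizer_le hW S.isPGroup'))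
  · exact Subgroup.map_subtype_le _
  · intro x hx g hg
    exact hwc x hx g (Subgroup.mem_top g) hg

end Cfsg.Agent.H40.Tr
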