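import Cfsg.Agent.H40.TraceSplit
import Cfsg.Agent.H39.PPrime
import Cfsg.Agent.H39.Fusion2
import Cfsg.Agent.H60.Cores

/-!
# Weakly closed elements of `Z(S)` form a direct factor: the solvable case (helper40)
-/

set_option autoImplicit false
open Cfsg

namespace Cfsg.Agent.H40.Tr

theorem weakly_closed_split_solvable {G : Type*} [Group G] [Finite G] {p : ℕ} [Fact p.Prime]
    (hs : Group.IsSolvable G) (S : Sylow p G) :
    ∃ W K : Subgroup G, (∀ x : G, x ∈ W ↔ (x ∈ (S : Subgroup G) ∧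
        ∀ g : G, g * x * g⁻¹ ∈ (S : Subgroup G) → g * x * g⁻¹ = x)) ∧
      K ≤ ((S : Subgroup G) ⊓ Subgroup.centralizer ((S : Subgroup G) : Set G)) ∧ W ⊓ K = ⊥ ∧
      W ⊔ K = ((S : Subgroup G) ⊓ Subgroup.centralizer ((S : Subgroup G) : Set G)) := by
  have hRn : (pPrimeCore p G).Normal := Cfsg.Agent.H39.pPrimeCore_normal' p
  have hLn : (pPrimePCore p G).Normal := Cfsg.Agent.H39.pPrimePCore_normal' p
  have hLtop : ∀ g : G, g ∈ Subgroup.normalizer ((pPrimePCore p G : Subgroup G) : Set G) := by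
    intro g
    rw [Subgroup.normalizer_eq_top_iff.mpr hLn]; exact Subgroup.mem_top g
  have hP : Cfsg.Agent.H39.SylIn p ((S : Subgroup G) ⊓ pPrimePCore p G) (pPrimePCore p G) :=
    Cfsg.Agent.H39.sylIn_inf_of_normal (Cfsg.Agent.H39.sylIn_top S) le_top (fun g _ => hLtop g)
  have hLeq := Cfsg.Agent.H39.pPrimePCore_eq_sup hP
  have hSR : (S : Subgroup G) ⊓ pPrimeCore p G = ⊥ :=
    Cfsg.Agent.H39.isPGroup_inf_pPrimeCore S.isPGroup'
  refine weakly_closed_split S
    (Subgroup.normalizer (((S : Subgroup G) ⊓ pPrimePCore p G : Subgroup G) : Set G))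
    ((S : Subgroup G) ⊓ pPrimePCore p G) ?_ inf_le_left le_rfl ?_ ?_
  · -- `S ≤ N(S ⊓ L)`
    intro s hs'
    rw [Subgroup.mem_normalizer_iff]
    intro h
    constructor
    · intro hh
      obtain ⟨h1, h2⟩ := Subgroup.mem_inf.mp hh
      exact Subgroup.mem_inf.mpr ⟨mul_mem (mul_mem hs' h1) (inv_mem hs'), hLn.conj_mem h h2 s⟩
    · intro hh
      obtain ⟨h1, h2⟩ := Subgroup.mem_inf.mp hh
      have e : h = s⁻¹ * (s * h * s⁻¹) * s⁻¹⁻¹ := by group
      rw [e]
      exact Subgroup.mem_inf.mpr ⟨mul_mem (mul_mem (inv_mem hs') h1) (inv_mem (inv_mem hs')),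
        hLn.conj_mem _ h2 s⁻¹⟩
  · -- `Z(S) ≤ S ⊓ L`
    intro x hx
    obtain ⟨hxS, hxC⟩ := Subgroup.mem_inf.mp hx
    refine Subgroup.mem_inf.mpr ⟨hxS, ?_⟩
    show x ∈ pPrimePCore p G
    unfold pPrimePCore
    rw [Subgroup.mem_comap]
    have : Group.IsSolvable G := hs
    apply Cfsg.Agent.H60.centralizer_pCore_le (inferInstance : Group.IsSolvable (G ⧸ pPrimeCore p G))
      (Cfsg.Agent.H60.pPrimeCore_quotient_eq_bot p)
    rw [Subgroup.mem_centralizer_iff]
    intro ybar hy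
    obtain ⟨y, rfl⟩ := QuotientGroup.mk'_surjective (pPrimeCore p G) ybar
    have hyL : y ∈ pPrimePCore p G := by
      unfold pPrimePCore
      rw [Subgroup.mem_comap]; exact hy
    rw [hLeq] at hyL
    obtain ⟨q, hq, r, hr, rfl⟩ := Subgroup.mem_sup_of_normal_right.mp hyL
    have h1 : QuotientGroup.mk' (pPrimeCore p G) (q * r) = QuotientGroup.mk' (pPrimeCore p G) q := by
      rw [map_mul]
      have : QuotientGroup.mk' (pPrimeCore p G) r = 1 := (QuotientGroup.eq_one_iff r).mpr hr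
      rw [this, mul_one]
    rw [h1, ← map_mul, ← map_mul]
    congr 1
    exact (Subgroup.mem_centralizer_iff.mp hxC) q (Subgroup.mem_inf.mp hq).1
  · -- weak closure
    intro x hx g hg
    obtain ⟨hxS, hxC⟩ := Subgroup.mem_inf.mp hx
    obtain ⟨c, hcL, hcg⟩ := Cfsg.Agent.H39.frattini_elt hP (hLtop g)
    rw [hLeq] at hcL
    obtain ⟨q, hq, r, hr, rfl⟩ := Subgroup.mem_sup_of_normal_right.mp hcL
    have hn' : r * g ∈ Subgroup.normalizer
        (((S : Subgroup G) ⊓ pPrimePCore p G : Subgroup G) : Set G) := by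
      have := mul_mem (inv_mem (Subgroup.le_normalizer hq)) hcg
      have e : q⁻¹ * (q * r * g) = r * g := by group
      rwa [e] at this
    have h1 : (r * g) * x = x * (r * g) := (Subgroup.mem_centralizer_iff.mp hxC) _ hn'
    have h2 : g * x * g⁻¹ = r⁻¹ * x * r := by
      calc g * x * g⁻¹ = r⁻¹ * ((r * g) * x) * g⁻¹ := by group
        _ = r⁻¹ * (x * (r * g)) * g⁻¹ := by rw [h1]
        _ = r⁻¹ * x * r := by group
    rw [h2] at hg ⊢
    have h3 : r⁻¹ * x * r * x⁻¹ ∈ (S : Subgroup G) ⊓ pPrimeCore p G := by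
      refine Subgroup.mem_inf.mpr ⟨mul_mem hg (inv_mem hxS), ?_⟩
      have e : r⁻¹ * x * r * x⁻¹ = r⁻¹ * (x * r * x⁻¹) := by group
      rw [e]
      exact mul_mem (inv_mem hr) (hRn.conj_mem r hr x)
    rw [hSR, Subgroup.mem_bot] at h3
    calc r⁻¹ * x * r = (r⁻¹ * x * r * x⁻¹) * x := by group
      _ = x := by rw [h3, one_mul]

end Cfsg.Agent.H40.Tr
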