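import Mathlib
import Cfsg.Agent.H44.WeilDefs

/-!
# S2347 part B, piece WEIL-DIMS (helper40): dimensions of the even and odd parts.
-/

set_option autoImplicit false

namespace Cfsg.Agent.H40.Weil

open Cfsg.Agent.H44.Weil Module

universe u

/-- The trace of the reflection is `1` (only `0` is fixed by negation when `2 ≠ 0`). -/
theorem trace_refl {F : Type u} [Field F] [Fintype F] (n : ℕ) (h2 : (2 : F) ≠ 0) :
    LinearMap.trace ℂ ((Fin n → F) → ℂ) (refl F n) = 1 := by
  classical
  rw [LinearMap.trace_eq_matrix_trace ℂ (Pi.basisFun ℂ (Fin n → F))]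
  simp only [Matrix.trace, Matrix.diag_apply, LinearMap.toMatrix_apply, Pi.basisFun_apply,
    Pi.basisFun_repr, refl_apply]
  rw [Finset.sum_eq_single (0 : Fin n → F)]
  · simp
  · intro ξ _ hξ
    rw [Pi.single_apply, if_neg]
    intro h
    apply hξ
    funext i
    have hi : -ξ i = ξ i := congrFun h i
    have : (2 : F) * ξ i = 0 := by linear_combination -hi
    rcases mul_eq_zero.mp this with h' | h'
    · exact absurd h' h2
    · simpa using h'
  · intro h
    exact absurd (Finset.mem_univ _) h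

theorem proj_even {F : Type u} [Field F] (n : ℕ) :
    LinearMap.IsProj (evenSub F n)
      ((2 : ℂ)⁻¹ • (LinearMap.id + refl F n) : ((Fin n → F) → ℂ) →ₗ[ℂ] ((Fin n → F) → ℂ)) := by
  constructor
  · intro φ
    rw [mem_evenSub]
    intro ξ
    simp only [LinearMap.smul_apply, LinearMap.add_apply, LinearMap.id_coe, id_eq, Pi.smul_apply,
      Pi.add_apply, refl_apply, neg_neg, smul_eq_mul]
    ring
  · intro φ hφ
    rw [mem_evenSub] at hφ
    funext ξ
    simp only [LinearMap.smul_apply, LinearMap.add_apply, LinearMap.id_coe, id_eq, Pi.smul_apply,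
      Pi.add_apply, refl_apply, smul_eq_mul, hφ ξ]
    ring

theorem proj_odd {F : Type u} [Field F] (n : ℕ) :
    LinearMap.IsProj (oddSub F n)
      ((2 : ℂ)⁻¹ • (LinearMap.id - refl F n) : ((Fin n → F) → ℂ) →ₗ[ℂ] ((Fin n → F) → ℂ)) := by
  constructor
  · intro φ
    rw [mem_oddSub]
    intro ξ
    simp only [LinearMap.smul_apply, LinearMap.sub_apply, LinearMap.id_coe, id_eq, Pi.smul_apply,
      Pi.sub_apply, refl_apply, neg_neg, smul_eq_mul]
    ring
  · intro φ hφ
    rw [mem_oddSub] at hφ
    funext ξ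
    simp only [LinearMap.smul_apply, LinearMap.sub_apply, LinearMap.id_coe, id_eq, Pi.smul_apply,
      Pi.sub_apply, refl_apply, smul_eq_mul, hφ ξ]
    ring

/-- `evenSub` and `oddSub` are complementary. -/
theorem isCompl_even_odd {F : Type u} [Field F] (n : ℕ) :
    IsCompl (evenSub F n) (oddSub F n) := by
  constructor
  · rw [Submodule.disjoint_def]
    intro φ he ho
    rw [mem_evenSub] at he
    rw [mem_oddSub] at ho
    funext ξ
    have h := (he ξ).symm.trans (ho ξ)
    have h' : (2 : ℂ) * φ ξ = 0 := by linear_combination h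
    simpa using h'
  · rw [Submodule.codisjoint_iff_exists_add_eq]
    intro φ
    refine ⟨((2 : ℂ)⁻¹ • (LinearMap.id + refl F n) :
        ((Fin n → F) → ℂ) →ₗ[ℂ] ((Fin n → F) → ℂ)) φ,
      ((2 : ℂ)⁻¹ • (LinearMap.id - refl F n) :
        ((Fin n → F) → ℂ) →ₗ[ℂ] ((Fin n → F) → ℂ)) φ, (proj_even n).map_mem φ,
      (proj_odd n).map_mem φ, ?_⟩
    funext ξ
    simp only [LinearMap.smul_apply, LinearMap.add_apply, LinearMap.sub_apply, LinearMap.id_coe,
      id_eq, Pi.smul_apply, Pi.add_apply, Pi.sub_apply, refl_apply, smul_eq_mul]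
    ring

/-- **WEIL-DIMS.** -/
theorem dims : StDims.{u} := by
  intro F _ _ n h2
  classical
  have hE := (proj_even (F := F) n).trace
  have hO := (proj_odd (F := F) n).trace
  rw [map_smul, map_add, trace_refl n h2, LinearMap.trace_id, smul_eq_mul] at hE
  rw [map_smul, map_sub, trace_refl n h2, LinearMap.trace_id, smul_eq_mul] at hO
  have hS : finrank ℂ ((Fin n → F) → ℂ) = Fintype.card F ^ n := by
    rw [Module.finrank_fintype_fun_eq_card, Fintype.card_fun, Fintype.card_fin]
  rw [hS] at hE hO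
  push_cast at hE hO
  have e1 : ((finrank ℂ (evenSub F n) : ℕ) : ℂ) = ((finrank ℂ (oddSub F n) + 1 : ℕ) : ℂ) := by
    push_cast
    linear_combination hO - hE
  have e2 : ((2 * finrank ℂ (oddSub F n) + 1 : ℕ) : ℂ) = ((Fintype.card F ^ n : ℕ) : ℂ) := by
    push_cast
    linear_combination (-2 : ℂ) * hO
  exact ⟨Nat.cast_injective e1, Nat.cast_injective e2, isCompl_even_odd n⟩

example : StDims.{u} := dims

end Cfsg.Agent.H40.Weil
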