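import Mathlib
import Cfsg.Agent.H44.WeilDefs
import Cfsg.Agent.H4.Irr

/-!
# S2347 part B, piece WEIL-IRR (helper40): a representation of the minimal possible nontrivial
dimension is irreducible.
-/

set_option autoImplicit false

namespace Cfsg.Agent.H40.Weil

open Cfsg.Agent.H44.Weil Module

universe v w

/-- **WEIL-IRR.** -/
theorem irr : StIrr.{v, w} := by
  intro G _ _ d hmin V _ _ _ ρ hd hnt
  classical
  rw [Cfsg.Agent.H4.isIrreducible_iff]
  obtain ⟨g0, hg0⟩ := hnt
  have hV : Nontrivial V := by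
    by_contra hV
    rw [not_nontrivial_iff_subsingleton] at hV
    exact hg0 (LinearMap.ext fun v => Subsingleton.elim _ _)
  refine ⟨hV, fun U hU => ?_⟩
  by_contra hcon
  push Not at hcon
  obtain ⟨hb, ht⟩ := hcon
  have := Cfsg.Agent.H4.neZero_card_complex G
  let Us : Subrepresentation ρ := ⟨U, fun g v hv => hU g v hv⟩
  obtain ⟨Ws, hW⟩ := exists_isCompl Us
  have hcompl : IsCompl Us.toSubmodule Ws.toSubmodule := Cfsg.Agent.H4.isCompl_toSubmodule hW
  have hsum : finrank ℂ Us.toSubmodule + finrank ℂ Ws.toSubmodule = finrank ℂ V :=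
    Submodule.finrank_add_eq_of_isCompl hcompl
  have hUlt : finrank ℂ Us.toSubmodule < finrank ℂ V :=
    Submodule.finrank_lt ht
  have hUpos : 0 < finrank ℂ Us.toSubmodule := by
    have : Nontrivial Us.toSubmodule := Submodule.nontrivial_iff_ne_bot.mpr hb
    exact Module.finrank_pos
  have hWlt : finrank ℂ Ws.toSubmodule < finrank ℂ V := by omega
  have hUtriv : ∀ g, Us.toRepresentation g = 1 := by
    intro g
    by_contra hne
    have := hmin Us.toRepresentation ⟨g, hne⟩
    omega
  have hWtriv : ∀ g, Ws.toRepresentation g = 1 := by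
    intro g
    by_contra hne
    have := hmin Ws.toRepresentation ⟨g, hne⟩
    omega
  apply hg0
  ext v
  obtain ⟨u, hu, w, hw, rfl⟩ := Submodule.mem_sup.mp
    (show v ∈ Us.toSubmodule ⊔ Ws.toSubmodule by rw [hcompl.sup_eq_top]; trivial)
  have h1 : ρ g0 u = u :=
    congrArg Subtype.val (LinearMap.congr_fun (hUtriv g0) ⟨u, hu⟩)
  have h2 : ρ g0 w = w :=
    congrArg Subtype.val (LinearMap.congr_fun (hWtriv g0) ⟨w, hw⟩)
  rw [map_add, h1, h2]
  rfl

example : StIrr.{v, w} := irr

end Cfsg.Agent.H40.Weil
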