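import Mathlib
import Cfsg.Agent.H44.WeilDefs

/-!
# S2347 part B, piece WEIL-REFL (helper40): invertible intertwiners commute with the reflection.
-/

set_option autoImplicit false

namespace Cfsg.Agent.H40.Weil

open Cfsg.Agent.H44.Weil Module Matrix

universe u

/-- `refl ∘ heis w = heis (-w) ∘ refl`, pointwise. -/
theorem refl_heis {F : Type u} [Field F] (n : ℕ) (ψ : AddChar F ℂ) (w : Fin n ⊕ Fin n → F)
    (φ : (Fin n → F) → ℂ) :
    refl F n (heis n ψ w φ) = heis n ψ (-w) (refl F n φ) := by
  funext ξ
  simp only [refl_apply, heis_apply]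
  have hx : xpt n (-w) = -xpt n w := rfl
  have hy : ypt n (-w) = -ypt n w := rfl
  rw [hx, hy]
  congr 2
  · simp only [dotProduct_neg, neg_dotProduct, neg_neg]
  · rw [neg_add, neg_neg]

/-- `refl ∘ refl = id`, pointwise. -/
theorem refl_refl {F : Type u} [Field F] (n : ℕ) (φ : (Fin n → F) → ℂ) :
    refl F n (refl F n φ) = φ := by
  funext ξ
  simp only [refl_apply, neg_neg]

/-- **WEIL-REFL.** -/
theorem reflComm (hC : StComm.{u}) (hD : StDims.{u}) : StReflComm.{u} := by
  intro F _ _ n h2 ψ hψ g T hT hI
  classical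
  obtain ⟨u, hu⟩ := hT
  set Tinv : Module.End ℂ ((Fin n → F) → ℂ) := ↑u⁻¹ with hTinv
  have hTi : ∀ φ, Tinv (T φ) = φ := fun φ => by
    rw [← hu]
    exact LinearMap.congr_fun u.inv_mul φ
  have hiT : ∀ φ, T (Tinv φ) = φ := fun φ => by
    rw [← hu]
    exact LinearMap.congr_fun u.mul_inv φ
  have hinj : Function.Injective T := fun a b hab => by
    rw [← hTi a, ← hTi b, hab]
  have hI' : ∀ w φ, T (heis n ψ w φ) = heis n ψ ((g : Matrix _ _ F) *ᵥ w) (T φ) :=
    fun w φ => LinearMap.congr_fun (hI w) φ
  have hinvI : ∀ w χ, Tinv (heis n ψ ((g : Matrix _ _ F) *ᵥ w) χ) = heis n ψ w (Tinv χ) := by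
    intro w χ
    apply hinj
    rw [hiT, hI', hiT]
  -- the commutant element
  obtain ⟨c, hc⟩ := hC n ψ hψ (Tinv ∘ₗ refl F n ∘ₗ T ∘ₗ refl F n) (by
    intro w
    refine LinearMap.ext fun φ => ?_
    show Tinv (refl F n (T (refl F n (heis n ψ w φ)))) =
      heis n ψ w (Tinv (refl F n (T (refl F n φ))))
    rw [refl_heis, hI', refl_heis, mulVec_neg, neg_neg, hinvI])
  have h3 : ∀ φ, refl F n (T (refl F n φ)) = c • T φ := by
    intro φ
    have := LinearMap.congr_fun hc φ
    simp only [LinearMap.comp_apply, LinearMap.smul_apply, LinearMap.id_coe, id_eq] at this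
    rw [← map_smul, ← this, hiT]
  -- `c ^ 2 = 1`
  have hcc : c * c = 1 := by
    have hne : T (fun _ => 1) ≠ 0 := by
      intro h0
      have : (fun _ => 1 : (Fin n → F) → ℂ) = 0 := hinj (h0.trans (map_zero T).symm)
      have := congrFun this 0
      simp at this
    have h4 : T (fun _ => 1) = (c * c) • T (fun _ => 1) := by
      have e1 := h3 (refl F n (fun _ => 1))
      rw [refl_refl] at e1
      have e2 := h3 (fun _ => 1)
      calc T (fun _ => 1) = refl F n (refl F n (T (fun _ => 1))) := (refl_refl n _).symm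
        _ = refl F n (c • T (refl F n (fun _ => 1))) := by rw [e1]
        _ = c • refl F n (T (refl F n (fun _ => 1))) := by rw [map_smul]
        _ = (c * c) • T (fun _ => 1) := by rw [e2, smul_smul]
    by_contra hne1
    have h5 : ((1 : ℂ) - c * c) • T (fun _ => 1) = 0 := by
      rw [sub_smul, one_smul, ← h4, sub_self]
    rcases smul_eq_zero.mp h5 with h6 | h6
    · exact hne1 (sub_eq_zero.mp h6).symm
    · exact hne h6
  rcases mul_self_eq_one_iff.mp hcc with h1 | h1
  · refine LinearMap.ext fun φ => ?_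
    show refl F n (T φ) = T (refl F n φ)
    have := h3 (refl F n φ)
    rw [refl_refl, h1, one_smul] at this
    exact this
  · exfalso
    have hmaps : ∀ φ ∈ evenSub F n, T φ ∈ oddSub F n := by
      intro φ hφ
      rw [mem_evenSub] at hφ
      rw [mem_oddSub]
      intro ξ
      have hr : refl F n φ = φ := by
        funext η
        exact hφ η
      have := h3 φ
      rw [hr, h1, neg_one_smul] at this
      exact congrFun this ξ
    have hle : finrank ℂ (evenSub F n) ≤ finrank ℂ (oddSub F n) := by
      apply LinearMap.finrank_le_finrank_of_injective (f := T.restrict hmaps)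
      intro a b hab
      apply Subtype.ext
      apply hinj
      exact congrArg Subtype.val hab
    have := (hD n h2).1
    omega

example (hC : StComm.{u}) (hD : StDims.{u}) : StReflComm.{u} := reflComm hC hD

end Cfsg.Agent.H40.Weil
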