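import Cfsg.Agent.H40.ZasRing

/-!
# S0690 piece RCB (ring form of `ZasAx.caseB`), from SL2, TYP2 and P3
-/

set_option autoImplicit false

namespace Cfsg.Agent.H40.Zas

open Cfsg.Agent.H72.Zas

universe u

theorem stRcb (h1 : StSl2.{u}) (h2 : StTyp2.{u}) (h3 : StP3.{u}) : StRcb.{u} := by
  intro G _ _ E _ _ R a b t₁ s₁ x₁ t₂ s₂ x₂ n ha hn hb4 hba ht₁ hs₁ ht₂ hs₂ hF₁ hF₂
  classical
  have hn0 : n ≠ 0 := by
    intro h0
    have := orderOf_pos a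
    rw [ha, h0] at this
    omega
  have hT4 : orderOf (a ^ n) = 4 := by
    rw [orderOf_pow' a hn0, ha, Nat.gcd_mul_left_left,
      Nat.mul_div_cancel _ (Nat.pos_of_ne_zero hn0)]
  have hT1 : a ^ n ≠ 1 := by
    intro h; rw [h, orderOf_one] at hT4; omega
  have hnt : Nontrivial E := ⟨⟨R.ι (a ^ n), 1, R.map_ne_one hT1⟩⟩
  have hbT : b * a ^ n * b⁻¹ = (a ^ n)⁻¹ := by rw [← conj_pow, hba, inv_pow]
  have hττ : R.ι (a ^ n) * R.ι (a ^ n) = -1 := R.map_four hT4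
  have hσσ : R.ι b * R.ι b = -1 := R.map_four hb4
  have hστ : R.ι b * R.ι (a ^ n) = -(R.ι (a ^ n) * R.ι b) := R.anti hT4 hbT
  have hu2 : IsUnit (2 : E) := R.isUnit_two (FpfRing.sq_four hT4)
  obtain ⟨w, hw⟩ := hu2
  obtain ⟨h, hh2⟩ : ∃ h : E, h * 2 = 1 := ⟨((w⁻¹ : Eˣ) : E), by rw [← hw]; exact Units.inv_mul w⟩
  have hc := half_central hh2
  have hab4 : orderOf (a * b) = 4 := by
    have := hF₂.os
    rcases hs₂ with h | h
    · rw [h] at this; exact this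
    · rw [h, orderOf_inv] at this; exact this
  -- relations for `a`
  have hυυ' : R.ι a * R.ι a⁻¹ = 1 := by rw [← map_mul, mul_inv_cancel, map_one]
  have hυ'υ : R.ι a⁻¹ * R.ι a = 1 := by rw [← map_mul, inv_mul_cancel, map_one]
  have hυτ : R.ι a * R.ι (a ^ n) = R.ι (a ^ n) * R.ι a := by
    rw [← map_mul, ← map_mul, ← pow_succ', ← pow_succ]
  have haT' : a⁻¹ * a ^ n = a ^ n * a⁻¹ := by
    calc a⁻¹ * a ^ n = a⁻¹ * (a ^ n * a) * a⁻¹ := by group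
      _ = a⁻¹ * (a * a ^ n) * a⁻¹ := by rw [← pow_succ', ← pow_succ]
      _ = a ^ n * a⁻¹ := by group
  have hυ'τ : R.ι a⁻¹ * R.ι (a ^ n) = R.ι (a ^ n) * R.ι a⁻¹ := by
    rw [← map_mul, ← map_mul, haT']
  have hba1 : b * a = a⁻¹ * b := by
    calc b * a = (b * a * b⁻¹) * b := by group
      _ = a⁻¹ * b := by rw [hba]
  have hba2 : b * a⁻¹ = a * b := by
    calc b * a⁻¹ = (b * a * b⁻¹)⁻¹ * b := by group
      _ = a * b := by rw [hba, inv_inv]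
  have hσυ : R.ι b * R.ι a = R.ι a⁻¹ * R.ι b := by rw [← map_mul, ← map_mul, hba1]
  have hσυ' : R.ι b * R.ι a⁻¹ = R.ι a * R.ι b := by rw [← map_mul, ← map_mul, hba2]
  obtain ⟨α₀, α₁, k0τ, k0σ, k1τ, k1σ, k01, kυ, knorm⟩ : ∃ α₀ α₁ : E,
      α₀ * R.ι (a ^ n) = R.ι (a ^ n) * α₀ ∧ α₀ * R.ι b = R.ι b * α₀ ∧
      α₁ * R.ι (a ^ n) = R.ι (a ^ n) * α₁ ∧ α₁ * R.ι b = R.ι b * α₁ ∧
      α₀ * α₁ = α₁ * α₀ ∧ R.ι a = α₀ + R.ι (a ^ n) * α₁ ∧ α₀ * α₀ + α₁ * α₁ = 1 :=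
    ⟨_, _, coef_facts hττ hστ hυυ' hυ'υ hυτ hυ'τ hσυ hσυ' hh2⟩
  obtain ⟨B, hhB, h0B, h1B, hBc, hBτ, hBσ⟩ := exists_comm_subring hc k01 k0τ k0σ k1τ k1σ
  have hab : R.ι (a * b) = R.ι b * α₀ + R.ι (a ^ n) * R.ι b * α₁ := by
    rw [map_mul, kυ, add_mul, hBσ α₀ h0B, mul_assoc, hBσ α₁ h1B, ← mul_assoc]
  -- signs
  have sgT : ∀ g : G, (g = a ^ n ∨ g = (a ^ n)⁻¹) →
      ∃ ε ∈ B, ε * ε = 1 ∧ R.ι g = ε * R.ι (a ^ n) := by
    intro g hg
    rcases hg with h | h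
    · exact ⟨1, B.one_mem, one_mul 1, by rw [h, one_mul]⟩
    · exact ⟨-1, B.neg_mem B.one_mem, by simp, by rw [h, R.map_inv_four hT4]; simp⟩
  have sgB : ∃ δ ∈ B, δ * δ = 1 ∧
      R.ι s₁ = δ * (R.ι b * 1 + R.ι (a ^ n) * R.ι b * 0) := by
    rcases hs₁ with h | h
    · exact ⟨1, B.one_mem, one_mul 1, by rw [h]; simp⟩
    · exact ⟨-1, B.neg_mem B.one_mem, by simp, by rw [h, R.map_inv_four hb4]; simp⟩
  have sgAB : ∃ δ ∈ B, δ * δ = 1 ∧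
      R.ι s₂ = δ * (R.ι b * α₀ + R.ι (a ^ n) * R.ι b * α₁) := by
    rcases hs₂ with h | h
    · exact ⟨1, B.one_mem, one_mul 1, by rw [h, hab, one_mul]⟩
    · exact ⟨-1, B.neg_mem B.one_mem, by simp, by rw [h, R.map_inv_four hab4, hab, neg_one_mul]⟩
  -- the generating set
  let X : Set G := {a, b, x₁, x₂}
  have hX : ∀ g ∈ X, ∃ b₀ ∈ B, ∃ b₁ ∈ B, ∃ b₂ ∈ B, ∃ b₃ ∈ B,
      R.ι g = b₀ + R.ι (a ^ n) * b₁ + R.ι b * b₂ + R.ι (a ^ n) * R.ι b * b₃ ∧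
        b₀ * b₀ + b₁ * b₁ + b₂ * b₂ + b₃ * b₃ = 1 := by
    intro g hg
    rcases hg with hg | hg | hg | hg
    · rw [hg]
      exact ⟨α₀, h0B, α₁, h1B, 0, B.zero_mem, 0, B.zero_mem, by simpa using kυ,
        by simpa using knorm⟩
    · rw [hg]
      exact ⟨0, B.zero_mem, 0, B.zero_mem, 1, B.one_mem, 0, B.zero_mem, by simp, by simp⟩
    · rw [hg]
      obtain ⟨ε, hεB, hεε, hε⟩ := sgT t₁ ht₁
      obtain ⟨δ, hδB, hδδ, hδ⟩ := sgB
      exact frame_coef B hBc hBτ hBσ hττ hhB hεB hδB B.one_mem B.zero_mem hh2 hεε hδδ (by simp)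
        hε hδ (h3 G E R t₁ s₁ x₁ hF₁)
    · rw [Set.mem_singleton_iff] at hg
      rw [hg]
      obtain ⟨ε, hεB, hεε, hε⟩ := sgT t₂ ht₂
      obtain ⟨δ, hδB, hδδ, hδ⟩ := sgAB
      exact frame_coef B hBc hBτ hBσ hττ hhB hεB hδB h0B h1B hh2 hεε hδδ knorm
        hε hδ (h3 G E R t₂ s₂ x₂ hF₂)
  have haX : a ∈ Subgroup.closure X := Subgroup.subset_closure (by simp [X])
  have hbX : b ∈ Subgroup.closure X := Subgroup.subset_closure (by simp [X])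
  have hx₁X : x₁ ∈ Subgroup.closure X := Subgroup.subset_closure (by simp [X])
  have hx₂X : x₂ ∈ Subgroup.closure X := Subgroup.subset_closure (by simp [X])
  obtain ⟨Q, _, π, hsurj, hker, hsmall⟩ := h1 G E R (R.ι (a ^ n)) (R.ι b) hττ hσσ hστ ⟨w, hw⟩ B
    hBc hBτ hBσ X hX ⟨b * b, Subgroup.mul_mem _ hbX hbX, by rw [map_mul, hσσ]⟩
  have hQfin : Finite Q := Finite.of_surjective π hsurj
  let a' : Subgroup.closure X := ⟨a, haX⟩
  let b' : Subgroup.closure X := ⟨b, hbX⟩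
  let x₁' : Subgroup.closure X := ⟨x₁, hx₁X⟩
  let x₂' : Subgroup.closure X := ⟨x₂, hx₂X⟩
  have qb : π b' * π b' = 1 := by
    rw [← map_mul, hker]
    right
    show R.ι (b * b) = -1
    rw [map_mul, hσσ]
  have qT : π a' ^ n * π a' ^ n = 1 := by
    rw [← map_pow, ← map_mul, hker]
    right
    show R.ι (a ^ n * a ^ n) = -1
    rw [map_mul, hττ]
  have qab : (π a' * π b') * (π a' * π b') = 1 := by
    rw [← map_mul, ← map_mul, hker]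
    right
    show R.ι (a * b * (a * b)) = -1
    rw [map_mul]
    exact R.map_four hab4
  have ib : (π b')⁻¹ = π b' := inv_eq_of_mul_eq_one_left qb
  have iT : (π a' ^ n)⁻¹ = π a' ^ n := inv_eq_of_mul_eq_one_left qT
  have iab : (π a' * π b')⁻¹ = π a' * π b' := inv_eq_of_mul_eq_one_left qab
  -- images
  have imT : ∀ g : G, (g = a ^ n ∨ g = (a ^ n)⁻¹) →
      ∃ m : g ∈ Subgroup.closure X, π ⟨g, m⟩ = π a' ^ n := by
    intro g hg
    rcases hg with h | h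
    · subst h
      exact ⟨pow_mem haX n, by rw [← map_pow]; rfl⟩
    · subst h
      refine ⟨inv_mem (pow_mem haX n), ?_⟩
      have : (⟨(a ^ n)⁻¹, inv_mem (pow_mem haX n)⟩ : Subgroup.closure X) = (a' ^ n)⁻¹ := rfl
      rw [this, map_inv, map_pow, iT]
  have imB : ∀ g : G, (g = b ∨ g = b⁻¹) →
      ∃ m : g ∈ Subgroup.closure X, π ⟨g, m⟩ = π b' := by
    intro g hg
    rcases hg with h | h
    · subst h
      exact ⟨hbX, rfl⟩
    · subst h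
      refine ⟨inv_mem hbX, ?_⟩
      have : (⟨b⁻¹, inv_mem hbX⟩ : Subgroup.closure X) = b'⁻¹ := rfl
      rw [this, map_inv, ib]
  have imAB : ∀ g : G, (g = a * b ∨ g = (a * b)⁻¹) →
      ∃ m : g ∈ Subgroup.closure X, π ⟨g, m⟩ = π a' * π b' := by
    intro g hg
    rcases hg with h | h
    · subst h
      exact ⟨mul_mem haX hbX, by rw [← map_mul]; rfl⟩
    · subst h
      refine ⟨inv_mem (mul_mem haX hbX), ?_⟩
      have : (⟨(a * b)⁻¹, inv_mem (mul_mem haX hbX)⟩ : Subgroup.closure X) = (a' * b')⁻¹ := rfl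
      rw [this, map_inv, map_mul, iab]
  obtain ⟨m₁, e₁⟩ := imT t₁ ht₁
  obtain ⟨m₂, e₂⟩ := imB s₁ hs₁
  obtain ⟨m₃, e₃⟩ := imT t₂ ht₂
  obtain ⟨m₄, e₄⟩ := imAB s₂ hs₂
  -- the order of `π a`
  have q1 : orderOf (π a') = 2 * n := by
    apply Nat.dvd_antisymm
    · apply orderOf_dvd_of_pow_eq_one
      rw [two_mul, pow_add]
      exact qT
    · have hk : π (a' ^ orderOf (π a')) = 1 := by rw [map_pow, pow_orderOf_eq_one]
      have hk' : R.ι (a ^ orderOf (π a')) = 1 ∨ R.ι (a ^ orderOf (π a')) = -1 := (hker _).mp hk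
      have hk2 : R.ι (a ^ (2 * orderOf (π a'))) = 1 := by
        rw [two_mul, pow_add, map_mul]
        rcases hk' with h | h
        · rw [h, one_mul]
        · rw [h]; simp
      have hk3 : a ^ (2 * orderOf (π a')) = 1 := R.inj (by rw [hk2, map_one])
      have hd := orderOf_dvd_of_pow_eq_one hk3
      rw [ha] at hd
      have hd' : 2 * (2 * n) ∣ 2 * orderOf (π a') := by
        have e : 2 * (2 * n) = 4 * n := by ring
        rw [e]; exact hd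
      exact Nat.dvd_of_mul_dvd_mul_left (by norm_num) hd'
  have q4 : π b' * π a' * (π b')⁻¹ = (π a')⁻¹ := by
    rw [← map_inv, ← map_mul, ← map_mul, ← map_inv]
    congr 1
    exact Subtype.ext hba
  have q5 : π x₁' * π a' ^ n * (π x₁')⁻¹ = π b' := by
    have e : (x₁' * ⟨t₁, m₁⟩ * x₁'⁻¹ : Subgroup.closure X) = ⟨s₁, m₂⟩ := Subtype.ext hF₁.xt
    have e' := congrArg π e
    rw [map_mul, map_mul, map_inv, e₁, e₂] at e'
    exact e'
  have q6 : π x₁' * π b' * (π x₁')⁻¹ = π a' ^ n * π b' := by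
    have e : (x₁' * ⟨s₁, m₂⟩ * x₁'⁻¹ : Subgroup.closure X) = ⟨t₁, m₁⟩ * ⟨s₁, m₂⟩ :=
      Subtype.ext hF₁.xs
    have e' := congrArg π e
    rw [map_mul, map_mul, map_inv, map_mul, e₁, e₂] at e'
    exact e'
  have q7 : π x₂' * π a' ^ n * (π x₂')⁻¹ = π a' * π b' := by
    have e : (x₂' * ⟨t₂, m₃⟩ * x₂'⁻¹ : Subgroup.closure X) = ⟨s₂, m₄⟩ := Subtype.ext hF₂.xt
    have e' := congrArg π e
    rw [map_mul, map_mul, map_inv, e₃, e₄] at e'
    exact e'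
  have q8 : π x₂' * (π a' * π b') * (π x₂')⁻¹ = π a' ^ n * (π a' * π b') := by
    have e : (x₂' * ⟨s₂, m₄⟩ * x₂'⁻¹ : Subgroup.closure X) = ⟨t₂, m₃⟩ * ⟨s₂, m₄⟩ :=
      Subtype.ext hF₂.xs
    have e' := congrArg π e
    rw [map_mul, map_mul, map_inv, map_mul, e₃, e₄] at e'
    exact e'
  exact h2 Q hsmall (π a') (π b') (π x₁') (π x₂') n q1 hn qb q4 q5 q6 q7 q8

end Cfsg.Agent.H40.Zas
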