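import Cfsg.Agent.H72.ZasDefs

/-!
# Ring-side helper lemmas for the Zassenhaus project (S0690, pieces U2 and RCB)
-/

set_option autoImplicit false
set_option linter.unusedSimpArgs false

namespace Cfsg.Agent.H40.Zas

universe u

section Ring

variable {E : Type u} [Ring E]

/-- a one-sided inverse of `2` is central. -/
theorem half_central {h : E} (hh2 : h * 2 = 1) (a : E) : h * a = a * h := by
  have h2h : (2 : E) * h = 1 := by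
    have : (2 : E) * h = h * 2 := by rw [mul_two, two_mul]
    rw [this, hh2]
  calc h * a = h * a * (2 * h) := by rw [h2h, mul_one]
    _ = h * 2 * a * h := by
        rw [two_mul, mul_two, mul_add, add_mul, add_mul, mul_assoc]
    _ = a * h := by rw [hh2, one_mul]

theorem half_sq {h : E} (hh2 : h * 2 = 1) : h * h * 4 = 1 := by
  have hc := half_central hh2
  have h4 : (4 : E) = 2 * 2 := by norm_num
  calc h * h * 4 = h * (h * 2) * 2 := by rw [h4]; simp only [mul_assoc]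
    _ = 1 := by rw [hh2, mul_one, hh2]

/-- the coefficients of an element `υ` commuting with `τ` and inverted by `σ`. -/
theorem coef_facts {τ σ υ υ' h : E} (hττ : τ * τ = -1) (hστ : σ * τ = -(τ * σ))
    (hυυ' : υ * υ' = 1) (hυ'υ : υ' * υ = 1) (hυτ : υ * τ = τ * υ) (hυ'τ : υ' * τ = τ * υ')
    (hσυ : σ * υ = υ' * σ) (hσυ' : σ * υ' = υ * σ) (hh2 : h * 2 = 1) :
    (h * (υ + υ')) * τ = τ * (h * (υ + υ')) ∧
    (h * (υ + υ')) * σ = σ * (h * (υ + υ')) ∧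
    (-(h * (τ * (υ - υ')))) * τ = τ * (-(h * (τ * (υ - υ')))) ∧
    (-(h * (τ * (υ - υ')))) * σ = σ * (-(h * (τ * (υ - υ')))) ∧
    (h * (υ + υ')) * (-(h * (τ * (υ - υ')))) = (-(h * (τ * (υ - υ')))) * (h * (υ + υ')) ∧
    υ = h * (υ + υ') + τ * (-(h * (τ * (υ - υ')))) ∧
    (h * (υ + υ')) * (h * (υ + υ')) + (-(h * (τ * (υ - υ')))) * (-(h * (τ * (υ - υ')))) = 1 := by
  have hc := half_central hh2
  have hpτ : (υ + υ') * τ = τ * (υ + υ') := by rw [add_mul, mul_add, hυτ, hυ'τ]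
  have hpσ : (υ + υ') * σ = σ * (υ + υ') := by rw [add_mul, mul_add, hσυ, hσυ', add_comm]
  have hdτ : (υ - υ') * τ = τ * (υ - υ') := by rw [sub_mul, mul_sub, hυτ, hυ'τ]
  have hmτ : (τ * (υ - υ')) * τ = τ * (τ * (υ - υ')) := by rw [mul_assoc, hdτ]
  have hmσ : (τ * (υ - υ')) * σ = σ * (τ * (υ - υ')) := by
    rw [mul_assoc, sub_mul, ← mul_assoc σ, hστ, neg_mul, mul_assoc τ σ, mul_sub σ, hσυ, hσυ',
      ← mul_neg, neg_sub]
  have hpd : (υ + υ') * (υ - υ') = (υ - υ') * (υ + υ') := by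
    simp only [add_mul, mul_add, sub_mul, mul_sub, hυυ', hυ'υ]
    abel
  have hpm : (υ + υ') * (τ * (υ - υ')) = (τ * (υ - υ')) * (υ + υ') := by
    rw [← mul_assoc, hpτ, mul_assoc, hpd, ← mul_assoc]
  have hmm : (τ * (υ - υ')) * (τ * (υ - υ')) = -((υ - υ') * (υ - υ')) := by
    calc (τ * (υ - υ')) * (τ * (υ - υ')) = τ * ((υ - υ') * τ) * (υ - υ') := by
          simp only [mul_assoc]
      _ = τ * τ * ((υ - υ') * (υ - υ')) := by rw [hdτ]; simp only [mul_assoc]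
      _ = -((υ - υ') * (υ - υ')) := by rw [hττ, neg_one_mul]
  have hsum : (υ + υ') * (υ + υ') + (τ * (υ - υ')) * (τ * (υ - υ')) = 4 := by
    rw [hmm]
    simp only [add_mul, mul_add, sub_mul, mul_sub, hυυ', hυ'υ]
    have h4 : (4 : E) = 1 + 1 + 1 + 1 := by norm_num
    rw [h4]
    abel
  have h2υ : (υ + υ') - τ * (τ * (υ - υ')) = 2 * υ := by
    rw [← mul_assoc, hττ, neg_one_mul, two_mul]
    abel
  -- generic commutation
  have gen : ∀ x y : E, x * y = y * x → (h * x) * y = y * (h * x) := by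
    intro x y hxy
    rw [mul_assoc, hxy, ← mul_assoc, hc y, mul_assoc]
  have gen2 : ∀ x y : E, (h * x) * (h * y) = h * h * (x * y) := by
    intro x y
    rw [mul_assoc, ← mul_assoc x h y, ← hc x, mul_assoc h x y, ← mul_assoc h h]
  refine ⟨gen _ _ hpτ, gen _ _ hpσ, ?_, ?_, ?_, ?_, ?_⟩
  · rw [neg_mul, mul_neg, gen _ _ hmτ]
  · rw [neg_mul, mul_neg, gen _ _ hmσ]
  · rw [mul_neg, neg_mul, gen2, gen2, hpm]
  · calc υ = h * (2 * υ) := by rw [← mul_assoc, hh2, one_mul]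
      _ = h * ((υ + υ') - τ * (τ * (υ - υ'))) := by rw [h2υ]
      _ = h * (υ + υ') + τ * (-(h * (τ * (υ - υ')))) := by
          rw [mul_sub, mul_neg, ← mul_assoc τ h, ← hc τ, mul_assoc, sub_eq_add_neg]
  · rw [neg_mul_neg, gen2, gen2, ← mul_add, hsum, half_sq hh2]

/-- a commutative subring containing given commuting elements, commuting with `τ`, `σ`. -/
theorem exists_comm_subring {τ σ h u₀ u₁ : E} (hc : ∀ a, h * a = a * h)
    (h01 : u₀ * u₁ = u₁ * u₀) (h0τ : u₀ * τ = τ * u₀) (h0σ : u₀ * σ = σ * u₀)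
    (h1τ : u₁ * τ = τ * u₁) (h1σ : u₁ * σ = σ * u₁) :
    ∃ B : Subring E, h ∈ B ∧ u₀ ∈ B ∧ u₁ ∈ B ∧ (∀ a ∈ B, ∀ b ∈ B, a * b = b * a) ∧
      (∀ b ∈ B, b * τ = τ * b) ∧ (∀ b ∈ B, b * σ = σ * b) := by
  let C : Set E := {c | c * h = h * c ∧ c * u₀ = u₀ * c ∧ c * u₁ = u₁ * c}
  have hhC : h ∈ C := ⟨rfl, hc u₀, hc u₁⟩
  have h0C : u₀ ∈ C := ⟨(hc u₀).symm, rfl, h01⟩
  have h1C : u₁ ∈ C := ⟨(hc u₁).symm, h01.symm, rfl⟩
  have hτC : τ ∈ C := ⟨(hc τ).symm, h0τ.symm, h1τ.symm⟩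
  have hσC : σ ∈ C := ⟨(hc σ).symm, h0σ.symm, h1σ.symm⟩
  refine ⟨Subring.centralizer C, ?_, ?_, ?_, ?_, ?_, ?_⟩
  · rw [Subring.mem_centralizer_iff]; intro g hg; exact hg.1
  · rw [Subring.mem_centralizer_iff]; intro g hg; exact hg.2.1
  · rw [Subring.mem_centralizer_iff]; intro g hg; exact hg.2.2
  · intro a ha b hb
    rw [Subring.mem_centralizer_iff] at ha hb
    have hbC : b ∈ C := ⟨(hb h hhC).symm, (hb u₀ h0C).symm, (hb u₁ h1C).symm⟩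
    exact (ha b hbC).symm
  · intro b hb
    rw [Subring.mem_centralizer_iff] at hb
    exact (hb τ hτC).symm
  · intro b hb
    rw [Subring.mem_centralizer_iff] at hb
    exact (hb σ hσC).symm

/-- the norm identity, computed in a commutative subring. -/
theorem comm_norm_id (B : Subring E) (hBc : ∀ a ∈ B, ∀ b ∈ B, a * b = b * a)
    {h ε δ c₀ c₁ : E} (hh : h ∈ B) (hε : ε ∈ B) (hδ : δ ∈ B) (hc₀ : c₀ ∈ B) (hc₁ : c₁ ∈ B)
    (hh2 : h * 2 = 1) (hεε : ε * ε = 1) (hδδ : δ * δ = 1) (hc : c₀ * c₀ + c₁ * c₁ = 1) :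
    (-h) * (-h) + (-(h * ε)) * (-(h * ε)) +
      (-(h * (δ * c₀)) + h * (ε * (δ * c₁))) * (-(h * (δ * c₀)) + h * (ε * (δ * c₁))) +
      (-(h * (δ * c₁)) - h * (ε * (δ * c₀))) * (-(h * (δ * c₁)) - h * (ε * (δ * c₀))) = 1 := by
  let inst : CommRing ↥B :=
    { (inferInstance : Ring ↥B) with
      mul_comm := fun a b => Subtype.ext (hBc a a.2 b b.2) }
  have key : ∀ (h ε δ c₀ c₁ : ↥B), h * 2 = 1 → ε * ε = 1 → δ * δ = 1 →
      c₀ * c₀ + c₁ * c₁ = 1 →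
      (-h) * (-h) + (-(h * ε)) * (-(h * ε)) +
      (-(h * (δ * c₀)) + h * (ε * (δ * c₁))) * (-(h * (δ * c₀)) + h * (ε * (δ * c₁))) +
      (-(h * (δ * c₁)) - h * (ε * (δ * c₀))) * (-(h * (δ * c₁)) - h * (ε * (δ * c₀))) = 1 := by
    intro h ε δ c₀ c₁ hh2 hε hδ hc
    linear_combination (h ^ 2 * (1 + δ ^ 2 * (c₀ ^ 2 + c₁ ^ 2))) * hε +
      (2 * h ^ 2 * (c₀ ^ 2 + c₁ ^ 2)) * hδ + (2 * h ^ 2) * hc + (2 * h + 1) * hh2
  have := key ⟨h, hh⟩ ⟨ε, hε⟩ ⟨δ, hδ⟩ ⟨c₀, hc₀⟩ ⟨c₁, hc₁⟩ (Subtype.ext hh2) (Subtype.ext hεε)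
    (Subtype.ext hδδ) (Subtype.ext hc)
  exact congrArg Subtype.val this

/-- the coordinates of the 3-element of a frame `(ε τ, δ (σ c₀ + τ σ c₁))`. -/
theorem frame_coef (B : Subring E) (hBc : ∀ a ∈ B, ∀ b ∈ B, a * b = b * a)
    {τ σ : E} (hBτ : ∀ b ∈ B, b * τ = τ * b) (hBσ : ∀ b ∈ B, b * σ = σ * b) (hττ : τ * τ = -1)
    {h ε δ c₀ c₁ : E} (hh : h ∈ B) (hε : ε ∈ B) (hδ : δ ∈ B) (hc₀ : c₀ ∈ B) (hc₁ : c₁ ∈ B)
    (hh2 : h * 2 = 1) (hεε : ε * ε = 1) (hδδ : δ * δ = 1) (hc : c₀ * c₀ + c₁ * c₁ = 1)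
    {τ' σ' ξ : E} (hτ' : τ' = ε * τ) (hσ' : σ' = δ * (σ * c₀ + τ * σ * c₁))
    (hξ : 2 * ξ = -(1 + τ' + σ' + τ' * σ')) :
    ∃ b₀ ∈ B, ∃ b₁ ∈ B, ∃ b₂ ∈ B, ∃ b₃ ∈ B,
      ξ = b₀ + τ * b₁ + σ * b₂ + τ * σ * b₃ ∧ b₀ * b₀ + b₁ * b₁ + b₂ * b₂ + b₃ * b₃ = 1 := by
  refine ⟨-h, B.neg_mem hh, -(h * ε), B.neg_mem (B.mul_mem hh hε),
    -(h * (δ * c₀)) + h * (ε * (δ * c₁)),
    B.add_mem (B.neg_mem (B.mul_mem hh (B.mul_mem hδ hc₀)))
      (B.mul_mem hh (B.mul_mem hε (B.mul_mem hδ hc₁))),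
    -(h * (δ * c₁)) - h * (ε * (δ * c₀)),
    B.sub_mem (B.neg_mem (B.mul_mem hh (B.mul_mem hδ hc₁)))
      (B.mul_mem hh (B.mul_mem hε (B.mul_mem hδ hc₀))), ?_,
    comm_norm_id B hBc hh hε hδ hc₀ hc₁ hh2 hεε hδδ hc⟩
  have e1 : ξ = h * (2 * ξ) := by rw [← mul_assoc, hh2, one_mul]
  rw [e1, hξ, hτ', hσ']
  have r1 : ∀ z ∈ B, ∀ y : E, z * (τ * y) = τ * (z * y) := by
    intro z hz y; rw [← mul_assoc, hBτ z hz, mul_assoc]
  have r2 : ∀ z ∈ B, ∀ y : E, z * (σ * y) = σ * (z * y) := by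
    intro z hz y; rw [← mul_assoc, hBσ z hz, mul_assoc]
  have hττ' : ∀ y : E, τ * (τ * y) = -y := by
    intro y; rw [← mul_assoc, hττ, neg_one_mul]
  simp only [mul_add, mul_sub, mul_neg, neg_mul, mul_one, mul_assoc, hBτ h hh, hBτ ε hε,
    hBτ δ hδ, hBσ h hh, hBσ ε hε, hBσ δ hδ, r1 h hh, r1 ε hε, r1 δ hδ, r2 h hh, r2 ε hε,
    r2 δ hδ, hττ']
  abel

end Ring

end Cfsg.Agent.H40.Zas
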