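import Cfsg.Agent.H40.ZasRing

/-!
# S0690 piece U2 (ring form of `ZasAx.u2`), from SL2, TYP1 and P3
-/

set_option autoImplicit false

namespace Cfsg.Agent.H40.Zas

open Cfsg.Agent.H72.Zas

universe u

theorem stU2 (h1 : StSl2.{u}) (h2 : StTyp1.{u}) (h3 : StP3.{u}) : StU2.{u} := by
  intro G _ _ E _ _ R t s x u hF hodd hut hsu
  classical
  have ht4 := hF.ot
  have hs4 := hF.os
  have ht1 : t ≠ 1 := by
    intro h; rw [h, orderOf_one] at ht4; omega
  have hnt : Nontrivial E := ⟨⟨R.ι t, 1, R.map_ne_one ht1⟩⟩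
  have hττ : R.ι t * R.ι t = -1 := R.map_four ht4
  have hσσ : R.ι s * R.ι s = -1 := R.map_four hs4
  have hστ : R.ι s * R.ι t = -(R.ι t * R.ι s) := R.anti ht4 hF.inv
  have hu2 : IsUnit (2 : E) := R.isUnit_two (FpfRing.sq_four ht4)
  obtain ⟨w, hw⟩ := hu2
  obtain ⟨h, hh2⟩ : ∃ h : E, h * 2 = 1 := ⟨((w⁻¹ : Eˣ) : E), by rw [← hw]; exact Units.inv_mul w⟩
  have hc := half_central hh2
  have h20 : (2 : E) ≠ 0 := by
    intro h0
    rw [h0, mul_zero] at hh2
    exact zero_ne_one hh2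
  -- relations for `u`
  have hυυ' : R.ι u * R.ι u⁻¹ = 1 := by rw [← map_mul, mul_inv_cancel, map_one]
  have hυ'υ : R.ι u⁻¹ * R.ι u = 1 := by rw [← map_mul, inv_mul_cancel, map_one]
  have hυτ : R.ι u * R.ι t = R.ι t * R.ι u := by rw [← map_mul, ← map_mul, hut]
  have hut' : u⁻¹ * t = t * u⁻¹ := by
    calc u⁻¹ * t = u⁻¹ * (t * u) * u⁻¹ := by group
      _ = u⁻¹ * (u * t) * u⁻¹ := by rw [hut]
      _ = t * u⁻¹ := by group
  have hυ'τ : R.ι u⁻¹ * R.ι t = R.ι t * R.ι u⁻¹ := by rw [← map_mul, ← map_mul, hut']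
  have hsu1 : s * u = u⁻¹ * s := by
    calc s * u = (s * u * s⁻¹) * s := by group
      _ = u⁻¹ * s := by rw [hsu]
  have hsu2 : s * u⁻¹ = u * s := by
    calc s * u⁻¹ = (s * u * s⁻¹)⁻¹ * s := by group
      _ = u * s := by rw [hsu, inv_inv]
  have hσυ : R.ι s * R.ι u = R.ι u⁻¹ * R.ι s := by rw [← map_mul, ← map_mul, hsu1]
  have hσυ' : R.ι s * R.ι u⁻¹ = R.ι u * R.ι s := by rw [← map_mul, ← map_mul, hsu2]
  obtain ⟨k0τ, k0σ, k1τ, k1σ, k01, kυ, knorm⟩ :=
    coef_facts hττ hστ hυυ' hυ'υ hυτ hυ'τ hσυ hσυ' hh2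
  obtain ⟨B, hhB, h0B, h1B, hBc, hBτ, hBσ⟩ := exists_comm_subring hc k01 k0τ k0σ k1τ k1σ
  -- the generating set
  let X : Set G := {t, s, x, u}
  have hX : ∀ g ∈ X, ∃ b₀ ∈ B, ∃ b₁ ∈ B, ∃ b₂ ∈ B, ∃ b₃ ∈ B,
      R.ι g = b₀ + R.ι t * b₁ + R.ι s * b₂ + R.ι t * R.ι s * b₃ ∧
        b₀ * b₀ + b₁ * b₁ + b₂ * b₂ + b₃ * b₃ = 1 := by
    intro g hg
    rcases hg with hg | hg | hg | hg
    · rw [hg]
      exact ⟨0, B.zero_mem, 1, B.one_mem, 0, B.zero_mem, 0, B.zero_mem, by simp, by simp⟩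
    · rw [hg]
      exact ⟨0, B.zero_mem, 0, B.zero_mem, 1, B.one_mem, 0, B.zero_mem, by simp, by simp⟩
    · rw [hg]
      have hP := h3 G E R t s x hF
      exact frame_coef B hBc hBτ hBσ hττ hhB B.one_mem B.one_mem B.one_mem B.zero_mem hh2
        (one_mul 1) (one_mul 1) (by simp) (one_mul _).symm (by simp) hP
    · rw [Set.mem_singleton_iff] at hg
      rw [hg]
      exact ⟨_, h0B, _, h1B, 0, B.zero_mem, 0, B.zero_mem, by simpa using kυ, by simpa using knorm⟩
  have htX : t ∈ Subgroup.closure X := Subgroup.subset_closure (by simp [X])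
  have hsX : s ∈ Subgroup.closure X := Subgroup.subset_closure (by simp [X])
  have hxX : x ∈ Subgroup.closure X := Subgroup.subset_closure (by simp [X])
  have huX : u ∈ Subgroup.closure X := Subgroup.subset_closure (by simp [X])
  obtain ⟨Q, _, π, hsurj, hker, hsmall⟩ := h1 G E R (R.ι t) (R.ι s) hττ hσσ hστ ⟨w, hw⟩ B hBc hBτ
    hBσ X hX ⟨t * t, Subgroup.mul_mem _ htX htX, by rw [map_mul, hττ]⟩
  have hQfin : Finite Q := Finite.of_surjective π hsurj
  let t' : Subgroup.closure X := ⟨t, htX⟩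
  let s' : Subgroup.closure X := ⟨s, hsX⟩
  let x' : Subgroup.closure X := ⟨x, hxX⟩
  let u' : Subgroup.closure X := ⟨u, huX⟩
  have q1 : π t' ≠ 1 := by
    intro hπ
    rcases (hker t').mp hπ with h | h
    · exact R.map_ne_one ht1 h
    · have h' : R.ι t = -1 := h
      rw [h'] at hττ
      have h11 : (1 : E) = -1 := by simpa using hττ
      apply h20
      rw [← one_add_one_eq_two]
      nth_rewrite 2 [h11]
      simp
  have q2 : π t' * π t' = 1 := by
    rw [← map_mul, hker]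
    right
    show R.ι (t * t) = -1
    rw [map_mul, hττ]
  have q2' : (π t')⁻¹ = π t' := inv_eq_of_mul_eq_one_left q2
  have q3 : π s' * π t' = π t' * π s' := by
    have e : s' * t' = t'⁻¹ * s' := by
      apply Subtype.ext
      show s * t = t⁻¹ * s
      calc s * t = (s * t * s⁻¹) * s := by group
        _ = t⁻¹ * s := by rw [hF.inv]
    rw [← map_mul, e, map_mul, map_inv, q2']
  have q4 : π x' * π t' * (π x')⁻¹ = π s' := by
    rw [← map_inv, ← map_mul, ← map_mul]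
    congr 1
    exact Subtype.ext hF.xt
  have q5 : π x' * π s' * (π x')⁻¹ = π t' * π s' := by
    rw [← map_inv, ← map_mul, ← map_mul, ← map_mul]
    congr 1
    exact Subtype.ext hF.xs
  have q6 : Odd (orderOf (π u')) := by
    have hd : orderOf (π u') ∣ orderOf u' := orderOf_map_dvd π u'
    rw [← Subgroup.orderOf_coe] at hd
    exact Odd.of_dvd_nat hodd hd
  have q7 : π u' * π t' = π t' * π u' := by
    rw [← map_mul, ← map_mul]
    congr 1
    exact Subtype.ext hut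
  have hπu : π u' = 1 := h2 Q hsmall (π t') (π s') (π x') (π u') q1 q2 q3 q4 q5 q6 q7
  rcases (hker u').mp hπu with h | h
  · exact R.inj (by rw [map_one]; exact h)
  · have h' : R.ι u = -1 := h
    have huu : u * u = 1 := R.inj (by rw [map_mul, h', map_one]; simp)
    have hd : orderOf u ∣ 2 := orderOf_dvd_of_pow_eq_one (by rw [pow_two, huu])
    rcases (Nat.dvd_prime Nat.prime_two).mp hd with h1' | h2'
    · exact orderOf_eq_one_iff.mp h1'
    · exfalso
      rw [h2'] at hodd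
      exact absurd hodd (by decide)

end Cfsg.Agent.H40.Zas
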